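import Cfsg.Agent.ChevPG.ParCard
import Cfsg.Agent.ChevM.Odd
import Cfsg.Agent.ChevF.TorRows

set_option autoImplicit false
set_option maxRecDepth 100000

/-!
# Commuting elements of F4(2^n) in A1 x B3 (helper19)
-/

namespace Cfsg.Agent.ChevPG

open Cfsg.Lie Matrix Subgroup Cfsg.Agent.ChevU Cfsg.Agent.Chev Cfsg.Agent.ChevGrp Cfsg.Agent.ChevM Cfsg.Agent.ChevWeyl

section gen

variable {D : ChevalleyDatum} {F : Type*} [Field F] (R : RootFacts D) (G : Chev.Good D)

theorem xr_comm_two [CharP F 2] {r s : ℕ} (hr : r < D.nroots) (hs : s < D.nroots) (hsr : s ≠ r) (hsn : s ≠ D.neg r)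
    (h : ((D.commTerms r s).all fun c => decide (c.2.1 % 2 = 0)) = true) (t u : F) :
    xr R (elemOfGood G F) r t * xr R (elemOfGood G F) s u = xr R (elemOfGood G F) s u * xr R (elemOfGood G F) r t := by
  have h1 := conj_xu R.tab (elemOfGood G F) hr hs hsr hsn t u
  have h2 : wu R.tab (elemOfGood G F) (D.commWord F r s t u) = 1 := by
    unfold wu ChevalleyDatum.commWord
    rw [List.map_map]
    apply List.prod_eq_one
    intro x hx
    obtain ⟨c, hc, rfl⟩ := List.mem_map.1 hx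
    rw [List.all_eq_true] at h
    have h3 := h c hc
    rw [decide_eq_true_eq] at h3
    have h4 : ((c.2.1 : ℤ) : F) = 0 := by
      obtain ⟨k, hk⟩ := Int.dvd_of_emod_eq_zero h3
      rw [hk]; push_cast
      rw [CharTwo.two_eq_zero, zero_mul]
    simp only [Function.comp]
    rw [h4, zero_mul, zero_mul]
    exact xu_zero R.tab (elemOfGood G F) _
  rw [h2, mul_one] at h1
  calc xr R (elemOfGood G F) r t * xr R (elemOfGood G F) s u
      = xr R (elemOfGood G F) r t * ((xu R.tab (elemOfGood G F) r t)⁻¹ * xu R.tab (elemOfGood G F) s u * xu R.tab (elemOfGood G F) r t) := by rw [h1]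
    _ = _ := by group

theorem phi_range (r : Fin D.nroots) {H : Subgroup (GL D.Idx F)} (h1 : ∀ t, xr R (elemOfGood G F) r t ∈ H)
    (h2 : ∀ t, xr R (elemOfGood G F) (D.neg r) t ∈ H) (g : SpecialLinearGroup (Fin 2) F) : phi R G r g ∈ H := by
  have h3 : (phi (F := F) R G r).range ≤ H := by
    unfold phi
    rw [SL2Sys.range_hom, sup_le_iff, closure_le, closure_le]
    constructor
    · rintro _ ⟨t, rfl⟩
      have := h1 t
      rw [← fphi_X R G r t] at this
      unfold phi at this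
      rw [SL2Sys.hom_X] at this
      exact this
    · rintro _ ⟨t, rfl⟩
      have := h2 t
      rw [← fphi_Y R G r t] at this
      unfold phi at this
      rw [SL2Sys.hom_Y] at this
      exact this
  exact h3 ⟨g, rfl⟩

/-- elements of prime order in a root `SL₂` -/
theorem exists_phi [Fintype F] [CharP F 2] (E : DData D) (r : Fin D.nroots) {ℓ : ℕ} (hℓ : ℓ.Prime)
    (hd : ℓ ∣ Fintype.card F * ((Fintype.card F - 1) * (Fintype.card F + 1))) : ∃ g : SpecialLinearGroup (Fin 2) F, phi R G r g ≠ 1 ∧ phi R G r g ^ ℓ = 1 := by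
  by_cases h2 : ℓ = 2
  · refine ⟨SL2Sys.X 1, ?_, ?_⟩
    · rw [fphi_X]; exact xr_ne_one R G r.2 one_ne_zero
    · rw [fphi_X, h2]; exact xr_pow_char R G 2 _ _
  · haveI : Fact ℓ.Prime := ⟨hℓ⟩
    obtain ⟨g, hg⟩ := exists_prime_orderOf_dvd_card' (G := SpecialLinearGroup (Fin 2) F) ℓ (by
      rw [H81.card_sl2 (F := F)]; exact hd)
    refine ⟨g, ?_, ?_⟩
    · intro h1
      have h3 := phi_ker R G E r h1
      have h4 : orderOf g ∣ 2 := orderOf_dvd_of_pow_eq_one (by rw [pow_two]; exact h3)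
      rw [hg] at h4
      exact h2 ((Nat.prime_dvd_prime_iff_eq hℓ Nat.prime_two).1 h4)
    · rw [← map_pow, ← hg, pow_orderOf_eq_one, map_one]

end gen

/-! ### type F4 -/

/-- the roots of the subsystem of type B3 -/
theorem chk44 : ((List.range 48).all fun s => !decide ((chevF4.coroot.getD s #[]).getD 0 0 = 0) ||
    (decide (s ≠ 44) && (decide (s ≠ 3) && (((chevF4.commTerms 44 s).all fun c => decide (c.2.1 % 2 = 0)) &&
      ((chevF4.commTerms 3 s).all fun c => decide (c.2.1 % 2 = 0)))))) = true := by decide +kernel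

theorem neg44 : chevF4.neg 44 = 3 ∧ chevF4.neg 3 = 44 ∧ chevF4.neg 27 = 20 := by decide +kernel

theorem cor27 : (chevF4.coroot.getD 27 #[]).getD 0 0 = 0 ∧ (chevF4.coroot.getD 20 #[]).getD 0 0 = 0 := by decide +kernel

/-- the subset of type B3 -/
def J3 : Set ℕ := {i | ∃ h : i < 4, (⟨i, h⟩ : Fin 4) ∈ STab.maskSet 4 14}

theorem zero_notin : 0 ∉ J3 := by
  rintro ⟨h, h1⟩
  rw [STab.mem_maskSet] at h1
  have h2 : bitB 14 0 = false := by decide +kernel
  have h3 : bitB 14 0 = true := h1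
  rw [h2] at h3
  exact absurd h3 (by simp)

theorem mem_J3 : ∀ i < 4, i ≠ 0 → i ∈ J3 := by
  intro i hi h0
  refine ⟨hi, ?_⟩
  rw [STab.mem_maskSet]
  have : ∀ i : Fin 4, (i : ℕ) ≠ 0 → bitB 14 i = true := by decide +kernel
  exact this ⟨i, hi⟩ h0

section f4

variable {F : Type*} [Field F] (R : RootFacts chevF4) (G : Chev.Good chevF4)

theorem comm44 [CharP F 2] {y : GL chevF4.Idx F} (hy : y ∈ clo chevF4 F (chevF4.InRootSub J3)) (g : SpecialLinearGroup (Fin 2) F) :
    Commute y (phi R G ⟨44, by decide⟩ g) := by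
  have h0 : ∀ s, chevF4.InRootSub J3 s → ∀ t u : F, xr R (elemOfGood G F) 44 u * xr R (elemOfGood G F) s t = xr R (elemOfGood G F) s t * xr R (elemOfGood G F) 44 u ∧
      xr R (elemOfGood G F) 3 u * xr R (elemOfGood G F) s t = xr R (elemOfGood G F) s t * xr R (elemOfGood G F) 3 u := by
    rintro s ⟨hs, h1⟩ t u
    have h2 := h1 0 (by decide) zero_notin
    have h3 := chk44
    rw [List.all_eq_true] at h3
    have h4 := h3 s (List.mem_range.2 hs)
    rw [h2] at h4
    simp only [decide_true, Bool.not_true, Bool.false_or, Bool.and_eq_true, decide_eq_true_eq] at h4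
    obtain ⟨h5, h6, h7, h8⟩ := h4
    obtain ⟨n1, n2, -⟩ := neg44
    exact ⟨xr_comm_two R G (by decide) hs h5 (by rw [n1]; exact h6) h7 u t, xr_comm_two R G (by decide) hs h6 (by rw [n2]; exact h5) h8 u t⟩
  have h1 : ∀ u, y * xr R (elemOfGood G F) 44 u = xr R (elemOfGood G F) 44 u * y ∧ y * xr R (elemOfGood G F) 3 u = xr R (elemOfGood G F) 3 u * y := by
    intro u
    have hle : clo chevF4 F (chevF4.InRootSub J3) ≤ centralizer ({xr R (elemOfGood G F) 44 u, xr R (elemOfGood G F) 3 u} : Set (GL chevF4.Idx F)) := by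
      apply clo_le R (elemOfGood G F)
      intro s hs t
      rw [mem_centralizer_iff]
      rintro x (rfl | rfl)
      · exact (h0 s hs t u).1
      · exact (h0 s hs t u).2
    have h2 := mem_centralizer_iff.1 (hle hy)
    exact ⟨(h2 _ (Or.inl rfl)).symm, (h2 _ (Or.inr rfl)).symm⟩
  have h2 := phi_range R G ⟨44, by decide⟩ (H := centralizer {y}) (fun t => by
      rw [mem_centralizer_iff]
      rintro x rfl
      exact (h1 t).1) (fun t => by
      rw [mem_centralizer_iff]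
      rintro x rfl
      have : chevF4.neg ((⟨44, by decide⟩ : Fin chevF4.nroots) : ℕ) = 3 := neg44.1
      rw [this]
      exact (h1 t).2) g
  rw [mem_centralizer_iff] at h2
  exact h2 y rfl

include R G in
/-- passing from the Levi subgroup to its derived part -/
theorem levi_part [Fintype F] {J : Set ℕ} {y : GL chevF4.Idx F} (hy : y ∈ chevF4.leviSubgroup F J) :
    y ^ (Fintype.card F - 1) ∈ clo chevF4 F (chevF4.InRootSub J) := by
  have hL : chevF4.leviSubgroup F J = chevF4.diagonalSubgroup F ⊔ clo chevF4 F (chevF4.InRootSub J) := rfl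
  rw [hL, sup_comm] at hy
  have hN := ChevU.diag_le_normalizer (F := F) R G (P := chevF4.InRootSub J) (fun s hs => hs.1)
  obtain ⟨x, hx, t, ht, rfl⟩ := mem_sup_of_le_normalizer hN hy
  have hpow : ∀ k : ℕ, ∃ v ∈ clo chevF4 F (chevF4.InRootSub J), (x * t) ^ k = v * t ^ k := by
    intro k
    induction k with
    | zero => exact ⟨1, one_mem _, by simp⟩
    | succ k ih =>
      obtain ⟨v, hv, e1⟩ := ih
      have h1 := (Subgroup.mem_normalizer_iff.1 (hN (pow_mem ht k)) x).1 hx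
      refine ⟨v * (t ^ k * x * (t ^ k)⁻¹), mul_mem hv h1, ?_⟩
      rw [pow_succ, e1, pow_succ]; group
  obtain ⟨v, hv, e⟩ := hpow (Fintype.card F - 1)
  obtain ⟨χ, rfl⟩ := ChevU.diag_le_range R G ht
  have h1 : χ ^ (Fintype.card F - 1) = 1 := by
    funext j
    rw [Pi.pow_apply, Pi.one_apply]
    apply Units.ext
    rw [Units.val_pow_eq_pow_val, Units.val_one]
    exact FiniteField.pow_card_sub_one_eq_one _ (Units.ne_zero _)
  rw [e, ← map_pow, h1, map_one, mul_one]
  exact hv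

theorem inJ3 {s : ℕ} (hs : s < 48) (h : (chevF4.coroot.getD s #[]).getD 0 0 = 0) : chevF4.InRootSub J3 s := by
  refine ⟨hs, fun i hi hiJ => ?_⟩
  by_cases h0 : i = 0
  · rw [h0]; exact h
  · exact absurd (mem_J3 i hi h0) hiJ

variable (E : DData chevF4)

theorem poin14g {n : ℕ} (D : RootPerm 4 n) (hA : ∀ i j : Fin 4, D.m i (D.p j) = cmF4 i j) (q : ℤ) :
    (q - 1) ^ 3 * D.PoinJ (STab.maskSet 4 14) q = (q ^ 6 - 1) * (q ^ 4 - 1) * (q ^ 2 - 1) := by
  have h1 := tabF4_1_poin D hA q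
  have h2 := tabF4_2_poin D hA q
  have h3 := tabF4_3_poin D hA q
  rw [maskSet_4_0_F4, RootPerm.PoinJ_empty, mul_one] at h3
  linear_combination (q - 1) ^ 2 * h1 + (q - 1) * (q ^ 6 - 1) * h2 + (q ^ 6 - 1) * (q ^ 4 - 1) * h3

theorem poin6g {n : ℕ} (D : RootPerm 4 n) (hA : ∀ i j : Fin 4, D.m i (D.p j) = cmF4 i j) (q : ℤ) :
    (q - 1) ^ 2 * D.PoinJ (STab.maskSet 4 6) q = (q ^ 4 - 1) * (q ^ 2 - 1) := by
  have h2 := tabF4_2_poin D hA q
  have h3 := tabF4_3_poin D hA q
  rw [maskSet_4_0_F4, RootPerm.PoinJ_empty, mul_one] at h3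
  linear_combination (q - 1) * h2 + (q ^ 4 - 1) * h3

theorem poin14 (q : ℤ) : (q - 1) ^ 3 * E.rp.PoinJ (STab.maskSet 4 14) q = (q ^ 6 - 1) * (q ^ 4 - 1) * (q ^ 2 - 1) :=
  poin14g E.rp (cartan_F4 E) q

theorem poin6 (q : ℤ) : (q - 1) ^ 2 * E.rp.PoinJ (STab.maskSet 4 6) q = (q ^ 4 - 1) * (q ^ 2 - 1) :=
  poin6g E.rp (cartan_F4 E) q

theorem poin_dvd (J : Finset (Fin chevF4.rank)) {q s m : ℕ} (hs : s.Prime) (hq : 1 ≤ q) (h1 : ¬ s ∣ q - 1) {X : ℤ}
    (h : ((q : ℤ) - 1) ^ m * E.rp.PoinJ J (q : ℤ) = X) (hX : (s : ℤ) ∣ X) : s ∣ E.rp.PoinJ J q := by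
  have hc : E.rp.PoinJ J (q : ℤ) = ((E.rp.PoinJ J q : ℕ) : ℤ) := by
    simp only [RootPerm.PoinJ]
    push_cast
    rfl
  rw [hc] at h
  rw [← h] at hX
  have hs' : Prime (s : ℤ) := Nat.prime_iff_prime_int.1 hs
  rcases hs'.dvd_or_dvd hX with h2 | h2
  · exfalso
    apply h1
    have h3 := hs'.dvd_of_dvd_pow h2
    have h4 : ((q : ℤ) - 1) = ((q - 1 : ℕ) : ℤ) := by push_cast [hq]; ring
    rw [h4] at h3
    exact_mod_cast h3
  · exact_mod_cast h2

include R G E in
/-- elements of prime order in the subgroup of type B3 -/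
theorem exists_B3 [Fintype F] [CharP F 2] {q s : ℕ} (hq : Fintype.card F = q) (hs : s.Prime) (hs2 : Nat.Coprime s q)
    (h : s ∣ (q - 1) * (q + 1) ∨ (¬ s ∣ q - 1 ∧ ((s : ℤ) ∣ (q : ℤ) ^ 6 - 1 ∨ (s : ℤ) ∣ (q : ℤ) ^ 4 - 1))) :
    ∃ y ∈ clo chevF4 F (chevF4.InRootSub J3), y ≠ 1 ∧ y ^ s = 1 := by
  have hD : chevF4 ∈ data := by simp [data]
  rcases h with h | ⟨h1, h⟩
  · obtain ⟨g, h1, h2⟩ := exists_phi (F := F) R G E ⟨27, by decide⟩ hs (by rw [hq]; exact h.mul_left _)
    refine ⟨_, ?_, h1, h2⟩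
    apply phi_range R G
    · intro t
      exact xr_mem_clo R _ (inJ3 (by decide) cor27.1) t
    · intro t
      have : chevF4.neg ((⟨27, by decide⟩ : Fin chevF4.nroots) : ℕ) = 20 := neg44.2.2
      rw [this]
      exact xr_mem_clo R _ (inJ3 (by decide) cor27.2) t
  · have hq1 : 1 ≤ q := by rw [← hq]; exact Fintype.card_pos
    have hP : s ∣ E.rp.PoinJ (STab.maskSet 4 14) q := by
      refine poin_dvd E _ hs hq1 h1 (poin14 E q) ?_
      rcases h with h | h
      · exact (h.mul_right _).mul_right _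
      · exact (h.mul_left _).mul_right _
    obtain ⟨y, hy, hy1, hys⟩ := exists_levi E hD (STab.maskSet 4 14) hq hs hs2 hP
    refine ⟨y, ?_, hy1, hys⟩
    have h3 := levi_part R G (J := J3) hy
    have hcop : Nat.Coprime (Fintype.card F - 1) (orderOf y) := by
      rw [hq]
      have h4 : orderOf y ∣ s := orderOf_dvd_of_pow_eq_one hys
      refine Nat.Coprime.coprime_dvd_right h4 ?_
      exact ((Nat.Prime.coprime_iff_not_dvd hs).2 h1).symm
    obtain ⟨m, hm⟩ := exists_pow_eq_self_of_coprime hcop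
    rw [← hm]
    exact pow_mem h3 m

include R G in
theorem clo_le_group : clo chevF4 F (chevF4.InRootSub J3) ≤ chevF4.group F := by
  have h := ChevU.parabolic_le_group (F := F) R G J3
  rw [← (levi_decomposition (F := F) R G J3).2.1] at h
  exact le_trans (le_trans (le_sup_right : _ ≤ chevF4.diagonalSubgroup F ⊔ clo chevF4 F (chevF4.InRootSub J3)) le_sup_right) h

include R G E in
/-- adjacency through `A1 × B3` -/
theorem adjA [Fintype F] [CharP F 2] {q r s : ℕ} (hq : Fintype.card F = q) (hr : r.Prime) (hs : s.Prime) (hrs : r ≠ s)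
    (hrq : r ∣ q * ((q - 1) * (q + 1))) (hs2 : Nat.Coprime s q)
    (h : s ∣ (q - 1) * (q + 1) ∨ (¬ s ∣ q - 1 ∧ ((s : ℤ) ∣ (q : ℤ) ^ 6 - 1 ∨ (s : ℤ) ∣ (q : ℤ) ^ 4 - 1))) :
    ∃ x : ↥(chevF4.group F), orderOf x = r * s := by
  obtain ⟨y, hy, hy1, hys⟩ := exists_B3 R G E hq hs hs2 h
  obtain ⟨g, hg1, hgr⟩ := exists_phi (F := F) R G E ⟨44, by decide⟩ hr (by rw [hq]; exact hrq)
  have hc := comm44 R G hy g
  have o1 : orderOf y = s := orderOf_eq_prime hys hy1 (hp := ⟨hs⟩)
  have o2 : orderOf (phi R G ⟨44, by decide⟩ g) = r := orderOf_eq_prime hgr hg1 (hp := ⟨hr⟩)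
  have hcop : Nat.Coprime (orderOf (phi R G ⟨44, by decide⟩ g)) (orderOf y) := by
    rw [o1, o2]; exact (Nat.coprime_primes hr hs).2 hrs
  have h3 := hc.symm.orderOf_mul_eq_mul_orderOf_of_coprime hcop
  rw [o1, o2] at h3
  have hmem : phi R G ⟨44, by decide⟩ g * y ∈ chevF4.group F := by
    refine mul_mem ?_ (clo_le_group R G hy)
    apply phi_range R G
    · intro t
      rw [group_eq_clo]
      exact xr_mem_clo R _ (P := fun r => r < chevF4.nroots) (by decide) _
    · intro t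
      rw [group_eq_clo]
      refine xr_mem_clo R _ (P := fun r => r < chevF4.nroots) ?_ _
      have : chevF4.neg ((⟨44, by decide⟩ : Fin chevF4.nroots) : ℕ) = 3 := neg44.1
      rw [this]; decide
  refine ⟨⟨_, hmem⟩, ?_⟩
  rw [Subgroup.orderOf_mk]
  exact h3

end f4

end Cfsg.Agent.ChevPG
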