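import Cfsg.Agent.ChevPG.Twist
import Cfsg.Agent.ChevPG.AdjA

set_option autoImplicit false
set_option maxRecDepth 100000

/-!
# Adjacent primes of equal order in F4(2^n) (helper19)
-/

namespace Cfsg.Agent.ChevPG

open Cfsg.Lie Cfsg.Agent.Chev Cfsg.Agent.ChevGrp Cfsg.Agent.ChevF Cfsg.Agent.ChevWeyl Matrix

def memq (x : Q4) (L : List Q4) : Bool := L.any (qeq x)

theorem memq_sound {x : Q4} {L : List Q4} (h : memq x L = true) : x ∈ L := by
  unfold memq at h
  rw [List.any_eq_true] at h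
  obtain ⟨y, hy, h1⟩ := h
  rw [qeq_sound h1]; exact hy

theorem chkP3 : ((List.range 48).all fun s => !decide (vec chevF4 s 0 = 0) || (memq (vq s) PB3 || memq (qn (vq s)) PB3)) = true := by
  decide +kernel

theorem chkP2 : ((List.range 48).all fun s => !decide (vec chevF4 s 0 = 0) || (!decide (vec chevF4 s 3 = 0) || (memq (vq s) PB2 || memq (qn (vq s)) PB2))) = true := by
  decide +kernel

/-- the subset of type B2 -/
def J2 : Set ℕ := {i | ∃ h : i < 4, (⟨i, h⟩ : Fin 4) ∈ STab.maskSet 4 6}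

theorem notin2 : 0 ∉ J2 ∧ 3 ∉ J2 := by
  constructor
  · rintro ⟨h, h1⟩
    rw [STab.mem_maskSet] at h1
    have h2 : bitB 6 0 = false := by decide +kernel
    have h3 : bitB 6 0 = true := h1
    rw [h2] at h3
    exact absurd h3 (by simp)
  · rintro ⟨h, h1⟩
    rw [STab.mem_maskSet] at h1
    have h2 : bitB 6 3 = false := by decide +kernel
    have h3 : bitB 6 3 = true := h1
    rw [h2] at h3
    exact absurd h3 (by simp)

section reg

variable (E : DData chevF4) {u : Equiv.Perm (Fin chevF4.nroots)}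

theorem isa_of (h : ∀ x : Fin chevF4.nroots, vec chevF4 (u x) 0 = vec chevF4 x 0) : isa (nm E u) = true := by
  have e := nm_one E
  have e0 : (nm E u).r0.a = 1 := (h (E.rp.wsys.p (0 : Fin 4))).trans (congrArg (fun M : M4 => M.r0.a) e)
  have e1 : (nm E u).r1.a = 0 := (h (E.rp.wsys.p (1 : Fin 4))).trans (congrArg (fun M : M4 => M.r1.a) e)
  have e2 : (nm E u).r2.a = 0 := (h (E.rp.wsys.p (2 : Fin 4))).trans (congrArg (fun M : M4 => M.r2.a) e)
  have e3 : (nm E u).r3.a = 0 := (h (E.rp.wsys.p (3 : Fin 4))).trans (congrArg (fun M : M4 => M.r3.a) e)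
  unfold isa
  rw [e0, e1, e2, e3]; rfl

theorem isd_of (h : ∀ x : Fin chevF4.nroots, vec chevF4 (u x) 3 = vec chevF4 x 3) : isd (nm E u) = true := by
  have e := nm_one E
  have e0 : (nm E u).r0.d = 0 := (h (E.rp.wsys.p (0 : Fin 4))).trans (congrArg (fun M : M4 => M.r0.d) e)
  have e1 : (nm E u).r1.d = 0 := (h (E.rp.wsys.p (1 : Fin 4))).trans (congrArg (fun M : M4 => M.r1.d) e)
  have e2 : (nm E u).r2.d = 0 := (h (E.rp.wsys.p (2 : Fin 4))).trans (congrArg (fun M : M4 => M.r2.d) e)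
  have e3 : (nm E u).r3.d = 1 := (h (E.rp.wsys.p (3 : Fin 4))).trans (congrArg (fun M : M4 => M.r3.d) e)
  unfold isd
  rw [e0, e1, e2, e3]; rfl

theorem hreg3 {s : ℕ} [hs : Fact s.Prime] (hs5 : 5 ≤ s) {q : ZMod s} (hq : q ^ 2 + q + 1 = 0 ∨ q ^ 2 - q + 1 = 0) :
    ∀ u ∈ E.rp.wsys.W, (∀ i ∈ ({0} : Set ℕ), ∀ x : Fin chevF4.nroots, vec chevF4 (u x) i = vec chevF4 x i) → ∀ α : Fin 4 → ZMod s, α ≠ 0 →
      Eig α q (nm E u) → ∀ x : Fin chevF4.nroots, (∀ i ∈ ({0} : Set ℕ), vec chevF4 x i = 0) → la α (vq x) ≠ 0 := by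
  intro u hu hI α hα he x hx
  have ha := isa_of E (fun y => hI 0 rfl y)
  have h := chkP3
  rw [List.all_eq_true] at h
  have h1 := h x (List.mem_range.2 x.2)
  rw [hx 0 rfl] at h1
  simp only [decide_true, Bool.not_true, Bool.false_or, Bool.or_eq_true] at h1
  rcases h1 with h1 | h1
  · exact reg_B3 E hu hs5 hα he hq ha (memq_sound h1)
  · have h2 := reg_B3 E hu hs5 hα he hq ha (memq_sound h1)
    rw [la_qn, neg_ne_zero] at h2
    exact h2

theorem hreg2 {s : ℕ} [hs : Fact s.Prime] (hs5 : 5 ≤ s) {q : ZMod s} (hq : q ^ 2 + 1 = 0) :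
    ∀ u ∈ E.rp.wsys.W, (∀ i ∈ ({0, 3} : Set ℕ), ∀ x : Fin chevF4.nroots, vec chevF4 (u x) i = vec chevF4 x i) → ∀ α : Fin 4 → ZMod s, α ≠ 0 →
      Eig α q (nm E u) → ∀ x : Fin chevF4.nroots, (∀ i ∈ ({0, 3} : Set ℕ), vec chevF4 x i = 0) → la α (vq x) ≠ 0 := by
  intro u hu hI α hα he x hx
  have ha := isa_of E (fun y => hI 0 (Or.inl rfl) y)
  have hd := isd_of E (fun y => hI 3 (Or.inr rfl) y)
  have h := chkP2
  rw [List.all_eq_true] at h
  have h1 := h x (List.mem_range.2 x.2)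
  rw [hx 0 (Or.inl rfl), hx 3 (Or.inr rfl)] at h1
  simp only [decide_true, Bool.not_true, Bool.false_or, Bool.or_eq_true] at h1
  rcases h1 with h1 | h1
  · exact reg_B2 E hu hs5 hα he hq ha hd (memq_sound h1)
  · have h2 := reg_B2 E hu hs5 hα he hq ha hd (memq_sound h1)
    rw [la_qn, neg_ne_zero] at h2
    exact h2

end reg

section main

variable {F : Type*} [Field F] [Fintype F]

theorem levi_le_group (J : Set ℕ) : chevF4.leviSubgroup F J ≤ chevF4.group F := by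
  have R := ChevU.rootFacts hF4
  have G := good_of_mem hF4
  have h := ChevU.parabolic_le_group (F := F) R G J
  rw [← (ChevU.levi_decomposition (F := F) R G J).2.1] at h
  exact le_trans le_sup_right h

theorem int_dvd_of_order {q s k m : ℕ} (h : orderOf (q : ZMod s) = k) (hm : k ∣ m) : (s : ℤ) ∣ (q : ℤ) ^ m - 1 := by
  rw [← ZMod.intCast_zmod_eq_zero_iff_dvd]
  push_cast
  rw [sub_eq_zero]
  exact orderOf_dvd_iff_pow_eq_one.1 (h ▸ hm)

theorem not_dvd_sub {q s : ℕ} (hq : 0 < q) (h : orderOf (q : ZMod s) ≠ 1) : ¬ s ∣ q - 1 := by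
  intro hd
  apply h
  rw [orderOf_eq_one_iff]
  have h1 := (ZMod.natCast_eq_zero_iff (q - 1) s).2 hd
  rw [Nat.cast_sub hq, Nat.cast_one, sub_eq_zero] at h1
  exact h1

/-- primes of equal order 3, 4 or 6 -/
theorem adjT {q r s k : ℕ} (hF : Fintype.card F = q) [hr : Fact r.Prime] [hs : Fact s.Prime] (hrs : r ≠ s)
    (hor : orderOf (q : ZMod r) = k) (hos : orderOf (q : ZMod s) = k) (hk : k = 3 ∨ k = 4 ∨ k = 6) :
    ∃ x : ↥(chevF4.group F), orderOf x = r * s := by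
  obtain ⟨E⟩ := DData.nonempty_of_mem (D := chevF4) hF4
  have hq2 : 2 ≤ q := by rw [← hF]; exact ChevF.two_le_card F
  have hq0 : 0 < q := by omega
  have hr3 : 3 ≤ orderOf (q : ZMod r) := by rw [hor]; omega
  have hs3 : 3 ≤ orderOf (q : ZMod s) := by rw [hos]; omega
  have hrq : ¬ r ∣ q := not_dvd_of_order (by omega)
  have hsq : ¬ s ∣ q := not_dvd_of_order (by omega)
  have hr5 := five_le hrq hr3
  have hs5 := five_le hsq hs3
  have hr1 : 0 < r - 1 := by omega
  have hs1 : 0 < s - 1 := by omega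
  have hN : 0 < 4 * ((s - 1) * (r - 1)) := by positivity
  obtain ⟨K, i1, i2, ι, σ, h1, h2, h3, h4⟩ := exists_ext hF hN
  have hrK : r ∣ Fintype.card K - 1 := by
    rw [h1]; exact dvd_card_sub hrq hq0 ((Dvd.intro_left _ rfl : r - 1 ∣ (s - 1) * (r - 1)).mul_left _)
  have hsK : s ∣ Fintype.card K - 1 := by
    rw [h1]; exact dvd_card_sub hsq hq0 ((Dvd.intro _ rfl : s - 1 ∣ (s - 1) * (r - 1)).mul_left _)
  have hQ : 9 < Fintype.card K := by
    rw [h1]
    have h5 : 4 ≤ 4 * ((s - 1) * (r - 1)) := by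
      have : 0 < (s - 1) * (r - 1) := Nat.mul_pos hs1 hr1
      omega
    calc 9 < 2 ^ 4 := by norm_num
      _ ≤ q ^ 4 := Nat.pow_le_pow_left hq2 4
      _ ≤ _ := Nat.pow_le_pow_right hq0 h5
  have hrk : ¬ r ∣ k := by
    intro h
    have h5 : r ∣ 12 := h.trans (by rcases hk with rfl | rfl | rfl <;> norm_num)
    rcases prime_dvd_12 hr.out h5 with rfl | rfl <;> omega
  have hk0 : 0 < k := by omega
  have hcop : Nat.Coprime s q := (Nat.Prime.coprime_iff_not_dvd hs.out).2 hsq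
  have hs1' : ¬ s ∣ q - 1 := not_dvd_sub hq0 (by omega)
  have key : ∃ y ∈ chevF4.group F, y ≠ 1 ∧ y ^ s = 1 ∧ ∃ y₂ ∈ chevF4.group F, y₂ ≠ 1 ∧ y₂ ^ r = 1 ∧ y * y₂ = y₂ * y := by
    have hpk := pk_of_order hos hk
    by_cases hk4 : k = 4
    · have hP : s ∣ E.rp.PoinJ (STab.maskSet 4 6) q :=
        poin_dvd E _ hs.out hq0 hs1' (poin6 E q) ((int_dvd_of_order hos (by rw [hk4])).mul_right _)
      obtain ⟨y, hy, hy1, hys⟩ := exists_levi E hF4 (STab.maskSet 4 6) hF hs.out hcop hP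
      refine ⟨y, levi_le_group _ hy, hy1, hys, ?_⟩
      refine twist_main E ι σ hq0 h2 h3 h4 h1 hN hs5 hr5 hsK hrK hk0 hos hor hrk hQ {0, 3} ?_ J2 ?_ hy (levi_le_group _ hy) hy1 hys
        (hreg2 E hs5 ?_)
      · rintro i (rfl | rfl) <;> norm_num
      · rintro i (rfl | rfl)
        · exact notin2.1
        · exact notin2.2
      · rcases hpk with ⟨h, -⟩ | ⟨-, h⟩ | ⟨h, -⟩
        · omega
        · exact h
        · omega
    · have hk6 : k ∣ 6 := by
        rcases hk with rfl | rfl | rfl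
        · norm_num
        · exact absurd rfl hk4
        · norm_num
      have hP : s ∣ E.rp.PoinJ (STab.maskSet 4 14) q :=
        poin_dvd E _ hs.out hq0 hs1' (poin14 E q) (((int_dvd_of_order hos hk6).mul_right _).mul_right _)
      obtain ⟨y, hy, hy1, hys⟩ := exists_levi E hF4 (STab.maskSet 4 14) hF hs.out hcop hP
      refine ⟨y, levi_le_group _ hy, hy1, hys, ?_⟩
      refine twist_main E ι σ hq0 h2 h3 h4 h1 hN hs5 hr5 hsK hrK hk0 hos hor hrk hQ {0} ?_ J3 ?_ hy (levi_le_group _ hy) hy1 hys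
        (hreg3 E hs5 ?_)
      · rintro i rfl; norm_num
      · rintro i rfl; exact zero_notin
      · rcases hpk with ⟨-, h⟩ | ⟨h, -⟩ | ⟨-, h⟩
        · exact Or.inl h
        · exact absurd h hk4
        · exact Or.inr h
  obtain ⟨y, hy, hy1, hys, z, hz, hz1, hzr, hc⟩ := key
  have o1 : orderOf y = s := orderOf_eq_prime hys hy1
  have o2 : orderOf z = r := orderOf_eq_prime hzr hz1
  have hcop : Nat.Coprime (orderOf z) (orderOf y) := by
    rw [o1, o2]; exact (Nat.coprime_primes hr.out hs.out).2 hrs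
  have hcm : Commute z y := hc.symm
  have h5 := hcm.orderOf_mul_eq_mul_orderOf_of_coprime hcop
  rw [o1, o2] at h5
  refine ⟨⟨_, mul_mem hz hy⟩, ?_⟩
  rw [Subgroup.orderOf_mk]
  exact h5

end main

end Cfsg.Agent.ChevPG
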