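import Cfsg.Agent.ChevPG.AdjT

set_option autoImplicit false
set_option maxRecDepth 100000

/-!
# The prime graph of F4(2^n) (helper19)
-/

namespace Cfsg.Agent.ChevPG

open Cfsg.Lie Cfsg.Agent.Chev Cfsg.Agent.ChevGrp Cfsg.Agent.ChevF Cfsg.Agent.ChevWeyl Matrix Polynomial

theorem adj_of_torus {G : Type*} [Group G] [Finite G] {T : Subgroup G} (hc : IsCyclic T) {n r s : ℕ} (hT : Nat.card T = n) (hr : r.Prime)
    (hs : s.Prime) (hrs : r ≠ s) (h1 : r ∣ n) (h2 : s ∣ n) : ∃ x : G, orderOf x = r * s := by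
  obtain ⟨g, hg⟩ := hc.exists_generator
  have ho : orderOf g = n := by rw [orderOf_eq_card_of_forall_mem_zpowers hg, hT]
  obtain ⟨m, hm⟩ := Nat.Coprime.mul_dvd_of_dvd_of_dvd ((Nat.coprime_primes hr hs).2 hrs) h1 h2
  have hn0 : n ≠ 0 := by rw [← hT]; exact Nat.card_pos.ne'
  have hm0 : m ≠ 0 := by rintro rfl; exact hn0 (by rw [hm, mul_zero])
  refine ⟨((g ^ m : T) : G), ?_⟩
  rw [Subgroup.orderOf_coe, orderOf_pow_of_dvd hm0 (by rw [ho, hm]; exact Dvd.intro_left _ rfl), ho, hm,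
    Nat.mul_div_cancel _ (Nat.pos_of_ne_zero hm0)]

theorem dvd8 {q r : ℕ} [Fact r.Prime] (h : orderOf (q : ZMod r) = 8) : r ∣ q ^ 4 + 1 := by
  rw [← ZMod.natCast_eq_zero_iff]
  push_cast
  have hp : (q : ZMod r) ^ 8 = 1 := by rw [← h]; exact pow_orderOf_eq_one _
  have hne : (q : ZMod r) ^ 4 ≠ 1 := pow_ne_one_of_lt_orderOf (by norm_num) (by rw [h]; norm_num)
  have h2 : ((q : ZMod r) ^ 4 - 1) * ((q : ZMod r) ^ 4 + 1) = 0 := by linear_combination hp
  exact (mul_eq_zero.1 h2).resolve_left (sub_ne_zero.2 hne)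

theorem dvd12 {q r : ℕ} [Fact r.Prime] (h : orderOf (q : ZMod r) = 12) : r ∣ q ^ 4 - q ^ 2 + 1 := by
  rw [← ZMod.natCast_eq_zero_iff, cast12]
  have hp : (q : ZMod r) ^ 12 = 1 := by rw [← h]; exact pow_orderOf_eq_one _
  have hne : (q : ZMod r) ^ 6 ≠ 1 := pow_ne_one_of_lt_orderOf (by norm_num) (by rw [h]; norm_num)
  have hne4 : (q : ZMod r) ^ 4 ≠ 1 := pow_ne_one_of_lt_orderOf (by norm_num) (by rw [h]; norm_num)
  have h2 : ((q : ZMod r) ^ 6 - 1) * (((q : ZMod r) ^ 2 + 1) * ((q : ZMod r) ^ 4 - (q : ZMod r) ^ 2 + 1)) = 0 := by linear_combination hp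
  refine (mul_eq_zero.1 ((mul_eq_zero.1 h2).resolve_left (sub_ne_zero.2 hne))).resolve_left ?_
  intro h5
  apply hne4
  linear_combination ((q : ZMod r) ^ 2 - 1) * h5

section main

variable {F : Type*} [Field F] [Fintype F]

/-- primes of equal order 8 or 12 -/
theorem adjC {q r s k : ℕ} (hF : Fintype.card F = q) (hq : 2 ∣ q) [hr : Fact r.Prime] [hs : Fact s.Prime] (hrs : r ≠ s)
    (hor : orderOf (q : ZMod r) = k) (hos : orderOf (q : ZMod s) = k) (hk : k = 8 ∨ k = 12) :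
    ∃ x : ↥(chevF4.group F), orderOf x = r * s := by
  obtain ⟨E⟩ := DData.nonempty_of_mem (D := chevF4) hF4
  haveI : Finite (GL chevF4.Idx F) := inferInstance
  have hq2 : 2 ≤ q := by rw [← hF]; exact ChevF.two_le_card F
  have hq0 : 0 < q := by omega
  have hr3 : 3 ≤ orderOf (q : ZMod r) := by rw [hor]; omega
  have hrq : ¬ r ∣ q := not_dvd_of_order (by omega)
  have hr5 := five_le hrq hr3
  have hcF : Nat.card (chevF4.diagonalSubgroup F) = (Fintype.card F - 1) ^ chevF4.rank := by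
    have := Cfsg.Agent.ChevU.card_diag (F := F) rfl (chevF4, 1) (by simp)
    rw [one_mul] at this; exact this
  have hcT : ∀ (L : Type) [Field L] [Fintype L], Nat.card (chevF4.diagonalSubgroup L) = (Fintype.card L - 1) ^ chevF4.rank := by
    intro L _ _
    have := Cfsg.Agent.ChevU.card_diag (F := L) rfl (chevF4, 1) (by simp)
    rw [one_mul] at this; exact this
  have hW : ¬ r ∣ Nat.card E.rp.wsys.W := by rw [card_W_F4]; exact not_dvd_W hr.out hr5
  have hrk : ¬ r ∣ k := by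
    intro h
    rcases hk with rfl | rfl
    · have h6 : r ∣ 2 ^ 3 := h
      have := (Nat.prime_dvd_prime_iff_eq hr.out Nat.prime_two).1 (hr.out.dvd_of_dvd_pow h6)
      omega
    · rcases prime_dvd_12 hr.out h with rfl | rfl <;> omega
  rcases hk with rfl | rfl
  · have hval : ((cyclotomic 8 ℤ).eval (q : ℤ)).natAbs = q ^ 4 + 1 := by
      rw [cyc8_eval]
      have : ((q : ℤ) ^ 4 + 1) = ((q ^ 4 + 1 : ℕ) : ℤ) := by push_cast; ring
      rw [this, Int.natAbs_natCast]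
    obtain ⟨T, hTc, hT, -⟩ := exists_torus E (F := F) hF4 hF hrk (by rw [← Int.dvd_natAbs, hval]; exact_mod_cast dvd8 hor) (by decide) (by norm_num) hW
      (by
        rw [Cfsg.Agent.S1062.result hF]
        exact (Dvd.intro_left _ rfl : q ^ 8 - 1 ∣ q ^ 24 * (q ^ 2 - 1) * (q ^ 6 - 1) * (q ^ 8 - 1)).mul_right _) hcF hcT (by
        intro ℓ hℓ h3 h9
        have : ℓ = 2 := by
          have h1 : ℓ ∣ 2 ^ 3 := h3
          exact (Nat.prime_dvd_prime_iff_eq hℓ Nat.prime_two).1 (hℓ.dvd_of_dvd_pow h1)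
        subst this
        rw [hval] at h9
        have h1 : 2 ∣ q ^ 4 + 1 := (Dvd.intro 2 (by norm_num) : (2 : ℕ) ∣ 2 ^ 2).trans h9
        have h2 : 2 ∣ q ^ 4 := hq.trans (dvd_pow_self q (by norm_num))
        omega)
    exact adj_of_torus hTc (hT.trans hval) hr.out hs.out hrs (dvd8 hor) (dvd8 hos)
  · obtain ⟨T, hTc, hT, -⟩ := exists_torus E (F := F) hF4 hF hrk (by rw [← Int.dvd_natAbs, cyc12_nat]; exact_mod_cast dvd12 hor) (by decide) (by norm_num) hW
      (by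
        rw [Cfsg.Agent.S1062.result hF]
        exact Dvd.intro_left _ rfl) hcF hcT (by
        intro ℓ hℓ h3 h9
        rw [cyc12_nat] at h9
        rcases prime_dvd_12 hℓ h3 with rfl | rfl
        · exact not2_12 q ((dvd_pow_self 2 (by norm_num)).trans h9)
        · exact not3_12 q ((dvd_pow_self 3 (by norm_num)).trans h9))
    exact adj_of_torus hTc (hT.trans (cyc12_nat q)) hr.out hs.out hrs (dvd12 hor) (dvd12 hos)

theorem charTwo {n : ℕ} (hF : Fintype.card F = 2 ^ n) : CharP F 2 := by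
  obtain ⟨p, hp⟩ := CharP.exists F
  haveI := hp
  have hp1 : p.Prime := CharP.char_is_prime F p
  haveI : Fact p.Prime := ⟨hp1⟩
  obtain ⟨m, hm, e⟩ := FiniteField.card F p
  rw [hF] at e
  have hp2 : p ∣ 2 ^ n := by rw [e]; exact dvd_pow_self p m.ne_zero
  have := (Nat.prime_dvd_prime_iff_eq hp1 Nat.prime_two).1 (hp1.dvd_of_dvd_pow hp2)
  rw [← this]; exact hp

/-- the possible orders -/
theorem order_cases {q s : ℕ} (hF : Fintype.card F = q) [hs : Fact s.Prime] (hsq : ¬ s ∣ q) (h : s ∣ Nat.card ↥(chevF4.group F)) :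
    orderOf (q : ZMod s) = 1 ∨ orderOf (q : ZMod s) = 2 ∨ orderOf (q : ZMod s) = 3 ∨ orderOf (q : ZMod s) = 4 ∨ orderOf (q : ZMod s) = 6 ∨
      orderOf (q : ZMod s) = 8 ∨ orderOf (q : ZMod s) = 12 := by
  have hq0 : 0 < q := by rw [← hF]; exact Fintype.card_pos
  rw [Cfsg.Agent.S1062.result hF] at h
  have key : ∀ m : ℕ, s ∣ q ^ m - 1 → orderOf (q : ZMod s) ∣ m := by
    intro m hm
    rw [orderOf_dvd_iff_pow_eq_one]
    rw [← ZMod.natCast_eq_zero_iff, Nat.cast_sub (Nat.one_le_pow _ _ hq0)] at hm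
    push_cast at hm
    exact sub_eq_zero.1 hm
  have h1 : orderOf (q : ZMod s) ∣ 8 ∨ orderOf (q : ZMod s) ∣ 12 := by
    rcases (Nat.Prime.dvd_mul hs.out).1 h with h | h
    · rcases (Nat.Prime.dvd_mul hs.out).1 h with h | h
      · rcases (Nat.Prime.dvd_mul hs.out).1 h with h | h
        · rcases (Nat.Prime.dvd_mul hs.out).1 h with h | h
          · exact absurd (hs.out.dvd_of_dvd_pow h) hsq
          · exact Or.inl ((key _ h).trans (by norm_num))
        · exact Or.inr ((key _ h).trans (by norm_num))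
      · exact Or.inl (key _ h)
    · exact Or.inr (key _ h)
  generalize orderOf (q : ZMod s) = d at h1
  rcases h1 with h1 | h1
  · have h2 := Nat.le_of_dvd (by norm_num) h1
    interval_cases d <;> omega
  · have h2 := Nat.le_of_dvd (by norm_num) h1
    interval_cases d <;> omega

/-- one of the primes divides `q(q²-1)` -/
theorem adj_small [CharP F 2] {q r s : ℕ} (hF : Fintype.card F = q) (hq : 2 ∣ q) [hr : Fact r.Prime] [hs : Fact s.Prime] (hrs : r ≠ s)
    (hr' : r = 2 ∨ orderOf (q : ZMod r) = 1 ∨ orderOf (q : ZMod r) = 2) (hsq : ¬ s ∣ q)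
    (hb : orderOf (q : ZMod s) = 1 ∨ orderOf (q : ZMod s) = 2 ∨ orderOf (q : ZMod s) = 3 ∨ orderOf (q : ZMod s) = 4 ∨ orderOf (q : ZMod s) = 6) :
    ∃ x : ↥(chevF4.group F), orderOf x = r * s := by
  obtain ⟨E⟩ := DData.nonempty_of_mem (D := chevF4) hF4
  have hq0 : 0 < q := by rw [← hF]; exact Fintype.card_pos
  have key : ∀ p : ℕ, (orderOf (q : ZMod p) = 1 ∨ orderOf (q : ZMod p) = 2) → p ∣ (q - 1) * (q + 1) := by
    intro p h
    have h1 : orderOf (q : ZMod p) ∣ 2 := by rcases h with h | h <;> rw [h]; norm_num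
    have h2 := orderOf_dvd_iff_pow_eq_one.1 h1
    rw [← ZMod.natCast_eq_zero_iff, Nat.cast_mul, Nat.cast_sub hq0]
    push_cast
    linear_combination h2
  refine adjA (ChevU.rootFacts hF4) (good_of_mem hF4) E hF hr.out hs.out hrs ?_ ((Nat.Prime.coprime_iff_not_dvd hs.out).2 hsq) ?_
  · rcases hr' with h | h
    · rw [h]; exact hq.mul_right _
    · exact (key r h).mul_left _
  · rcases hb with h | h | h | h | h
    · exact Or.inl (key s (Or.inl h))
    · exact Or.inl (key s (Or.inr h))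
    · exact Or.inr ⟨not_dvd_sub hq0 (by omega), Or.inl (int_dvd_of_order h (by norm_num))⟩
    · exact Or.inr ⟨not_dvd_sub hq0 (by omega), Or.inr (int_dvd_of_order h (by norm_num))⟩
    · exact Or.inr ⟨not_dvd_sub hq0 (by omega), Or.inl (int_dvd_of_order h (by norm_num))⟩

/-- the non-adjacency condition, for an ordered pair of primes -/
def NA (q r s : ℕ) : Prop :=
  (r = 2 ∧ (orderOf (q : ZMod s) = 8 ∨ orderOf (q : ZMod s) = 12)) ∨
  (r ≠ 2 ∧ s ≠ 2 ∧ orderOf (q : ZMod r) < orderOf (q : ZMod s) ∧ ((orderOf (q : ZMod s) = 8 ∨ orderOf (q : ZMod s) = 12) ∨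
    (orderOf (q : ZMod s) = 6 ∧ (orderOf (q : ZMod r) = 3 ∨ orderOf (q : ZMod r) = 4)) ∨ (orderOf (q : ZMod s) = 4 ∧ orderOf (q : ZMod r) = 3)))

theorem not_adj {n q r s : ℕ} (hF : Fintype.card F = q) (hq : q = 2 ^ n) [hr : Fact r.Prime] [hs : Fact s.Prime]
    (h : NA q r s) (x : ↥(chevF4.group F)) : orderOf x ≠ r * s := by
  intro hx
  rcases h with ⟨h2, h⟩ | ⟨-, -, hlt, h | ⟨h, h'⟩ | ⟨h, h'⟩⟩
  · exact (nonadj_reg hF hq rfl h (r := r) (hx.trans (mul_comm _ _))).1 h2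
  · have := (nonadj_reg hF hq rfl h (r := r) (hx.trans (mul_comm _ _))).2
    omega
  · have := nonadj_346 hF hq rfl rfl (by omega) (by omega) hx
    omega
  · have := nonadj_346 hF hq rfl rfl (by omega) (by omega) hx
    omega

theorem adj_of {n q r s : ℕ} (hn : 1 ≤ n) (hF : Fintype.card F = q) (hq : q = 2 ^ n) [hr : Fact r.Prime] [hs : Fact s.Prime] (hrs : r ≠ s)
    (hrG : r ∣ Nat.card ↥(chevF4.group F)) (hsG : s ∣ Nat.card ↥(chevF4.group F))
    (h1 : ¬ NA q r s) (h2 : ¬ NA q s r) : ∃ x : ↥(chevF4.group F), orderOf x = r * s := by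
  haveI : CharP F 2 := charTwo (n := n) (by rw [hF, hq])
  have h2q : 2 ∣ q := by rw [hq]; exact dvd_pow_self 2 (by omega)
  have hndvd : ∀ p : ℕ, p.Prime → p ≠ 2 → ¬ p ∣ q := by
    intro p hp hp2 h
    rw [hq] at h
    exact hp2 ((Nat.prime_dvd_prime_iff_eq hp Nat.prime_two).1 (hp.dvd_of_dvd_pow h))
  unfold NA at h1 h2
  by_cases hr2 : r = 2
  · have hs2 : s ≠ 2 := fun h => hrs (by rw [h, hr2])
    have h3 := order_cases hF (hndvd s hs.out hs2) hsG
    exact adj_small hF h2q hrs (Or.inl hr2) (hndvd s hs.out hs2) (by omega)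
  by_cases hs2 : s = 2
  · have h3 := order_cases hF (hndvd r hr.out hr2) hrG
    obtain ⟨x, hx⟩ := adj_small (r := s) (s := r) hF h2q hrs.symm (Or.inl hs2) (hndvd r hr.out hr2) (by omega)
    exact ⟨x, hx.trans (mul_comm _ _)⟩
  have h3 := order_cases hF (hndvd s hs.out hs2) hsG
  have h4 := order_cases hF (hndvd r hr.out hr2) hrG
  by_cases h5 : orderOf (q : ZMod r) = orderOf (q : ZMod s)
  · by_cases h6 : orderOf (q : ZMod s) = 8 ∨ orderOf (q : ZMod s) = 12
    · exact adjC hF h2q hrs h5 rfl h6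
    by_cases h7 : orderOf (q : ZMod s) = 3 ∨ orderOf (q : ZMod s) = 4 ∨ orderOf (q : ZMod s) = 6
    · exact adjT hF hrs h5 rfl h7
    exact adj_small hF h2q hrs (by omega) (hndvd s hs.out hs2) (by omega)
  · rcases lt_or_gt_of_ne h5 with h6 | h6
    · exact adj_small hF h2q hrs (by omega) (hndvd s hs.out hs2) (by omega)
    · obtain ⟨x, hx⟩ := adj_small (r := s) (s := r) hF h2q hrs.symm (by omega) (hndvd r hr.out hr2) (by omega)
      exact ⟨x, hx.trans (mul_comm _ _)⟩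

theorem main {n q r s : ℕ} (hn : 1 ≤ n) (hF : Fintype.card F = q) (hq : q = 2 ^ n) (hr : r.Prime) (hs : s.Prime) (hrs : r ≠ s)
    (hrG : r ∣ Nat.card ↥(chevF4.group F)) (hsG : s ∣ Nat.card ↥(chevF4.group F)) :
    (¬ ∃ x : ↥(chevF4.group F), orderOf x = r * s) ↔ (NA q r s ∨ NA q s r) := by
  haveI : Fact r.Prime := ⟨hr⟩
  haveI : Fact s.Prime := ⟨hs⟩
  constructor
  · intro h
    by_contra h1
    push Not at h1
    exact h (adj_of hn hF hq hrs hrG hsG h1.1 h1.2)
  · rintro (h | h) ⟨x, hx⟩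
    · exact not_adj hF hq h x hx
    · exact not_adj hF hq h x (hx.trans (mul_comm _ _))

end main

end Cfsg.Agent.ChevPG
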