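import Cfsg.Agent.ChevPG.Tab
import Cfsg.Agent.ChevF.TorMain

set_option autoImplicit false
set_option maxRecDepth 100000

/-!
# Eigenvectors of elements of the Weyl group of type F4 modulo a prime (helper19)
-/

namespace Cfsg.Agent.ChevPG

open Cfsg.Lie Cfsg.Agent.Chev Cfsg.Agent.ChevGrp Cfsg.Agent.ChevF Matrix

section lin

variable {r : ℕ}

theorem lc_eq (p q r s x y z w : ℤ) : lc p q r s x y z w = p * x + q * y + (r * z + s * w) := rfl

theorem d2_eq (a b c d : ℤ) : d2 a b c d = a * d - b * c := rfl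

/-- the linear functional -/
def la (α : Fin 4 → ZMod r) (x : Q4) : ZMod r := α 0 * x.a + α 1 * x.b + α 2 * x.c + α 3 * x.d

theorem la_vm (α : Fin 4 → ZMod r) (x : Q4) (M : M4) :
    la α (vm x M) = x.a * la α M.r0 + x.b * la α M.r1 + x.c * la α M.r2 + x.d * la α M.r3 := by
  obtain ⟨p, q, r', s⟩ := x
  obtain ⟨⟨a0, b0, c0, d0⟩, ⟨a1, b1, c1, d1⟩, ⟨a2, b2, c2, d2⟩, ⟨a3, b3, c3, d3⟩⟩ := M
  simp only [la, vm, lc_eq]
  push_cast
  ring

theorem la_qa (α : Fin 4 → ZMod r) (x y : Q4) : la α (qa x y) = la α x + la α y := by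
  have h : ∀ a b : ℤ, Int.add a b = a + b := fun _ _ => rfl
  simp only [la, qa, h]
  push_cast
  ring

theorem la_qn (α : Fin 4 → ZMod r) (x : Q4) : la α (qn x) = - la α x := by
  have h : ∀ a : ℤ, Int.neg a = -a := fun _ => rfl
  simp only [la, qn, h]
  push_cast
  ring

theorem det4_eq (x y z w : Q4) : det4 x y z w =
    (x.a * y.b - x.b * y.a) * (z.c * w.d - z.d * w.c) - (x.a * y.c - x.c * y.a) * (z.b * w.d - z.d * w.b) +
    ((x.a * y.d - x.d * y.a) * (z.b * w.c - z.c * w.b) + (x.b * y.c - x.c * y.b) * (z.a * w.d - z.d * w.a)) +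
    ((x.c * y.d - x.d * y.c) * (z.a * w.b - z.b * w.a) - (x.b * y.d - x.d * y.b) * (z.a * w.c - z.c * w.a)) := rfl

theorem det4_mul (α : Fin 4 → ZMod r) (x y z w : Q4) (hx : la α x = 0) (hy : la α y = 0) (hz : la α z = 0) (hw : la α w = 0) (i : Fin 4) :
    ((det4 x y z w : ℤ) : ZMod r) * α i = 0 := by
  rw [det4_eq]
  obtain ⟨xa, xb, xc, xd⟩ := x
  obtain ⟨ya, yb, yc, yd⟩ := y
  obtain ⟨za, zb, zc, zd⟩ := z
  obtain ⟨wa, wb, wc, wd⟩ := w
  simp only [la] at hx hy hz hw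
  push_cast
  fin_cases i
  · simp only [Fin.zero_eta, Fin.isValue]
    linear_combination (yb * (zc * wd - zd * wc) - yc * (zb * wd - zd * wb) + yd * (zb * wc - zc * wb)) * hx
      - (xb * (zc * wd - zd * wc) - xc * (zb * wd - zd * wb) + xd * (zb * wc - zc * wb)) * hy
      + (wd * (xb * yc - xc * yb) - wc * (xb * yd - xd * yb) + wb * (xc * yd - xd * yc)) * hz
      - (zd * (xb * yc - xc * yb) - zc * (xb * yd - xd * yb) + zb * (xc * yd - xd * yc)) * hw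
  · simp only [Fin.mk_one, Fin.isValue]
    linear_combination -(ya * (zc * wd - zd * wc) - yc * (za * wd - zd * wa) + yd * (za * wc - zc * wa)) * hx
      + (xa * (zc * wd - zd * wc) - xc * (za * wd - zd * wa) + xd * (za * wc - zc * wa)) * hy
      - (wd * (xa * yc - xc * ya) - wc * (xa * yd - xd * ya) + wa * (xc * yd - xd * yc)) * hz
      + (zd * (xa * yc - xc * ya) - zc * (xa * yd - xd * ya) + za * (xc * yd - xd * yc)) * hw
  · simp only [Fin.reduceFinMk, Fin.isValue]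
    linear_combination (ya * (zb * wd - zd * wb) - yb * (za * wd - zd * wa) + yd * (za * wb - zb * wa)) * hx
      - (xa * (zb * wd - zd * wb) - xb * (za * wd - zd * wa) + xd * (za * wb - zb * wa)) * hy
      + (wd * (xa * yb - xb * ya) - wb * (xa * yd - xd * ya) + wa * (xb * yd - xd * yb)) * hz
      - (zd * (xa * yb - xb * ya) - zb * (xa * yd - xd * ya) + za * (xb * yd - xd * yb)) * hw
  · simp only [Fin.reduceFinMk, Fin.isValue]
    linear_combination -(ya * (zb * wc - zc * wb) - yb * (za * wc - zc * wa) + yc * (za * wb - zb * wa)) * hx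
      + (xa * (zb * wc - zc * wb) - xb * (za * wc - zc * wa) + xc * (za * wb - zb * wa)) * hy
      - (wc * (xa * yb - xb * ya) - wb * (xa * yc - xc * ya) + wa * (xb * yc - xc * yb)) * hz
      + (zc * (xa * yb - xb * ya) - zb * (xa * yc - xc * ya) + za * (xb * yc - xc * yb)) * hw

theorem sm_dvd {d : ℤ} (h : sm d = true) : d ∣ 2 ^ 12 * 3 ^ 12 := by
  unfold sm at h
  split at h
  · rename_i n
    rw [Bool.and_eq_true, Nat.beq_eq] at h
    have := Nat.dvd_of_mod_eq_zero h.2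
    have h2 : ((n : ℕ) : ℤ) ∣ ((2 ^ 12 * 3 ^ 12 : ℕ) : ℤ) := Int.natCast_dvd_natCast.2 this
    push_cast at h2
    exact h2
  · rename_i n
    rw [Nat.beq_eq] at h
    have := Nat.dvd_of_mod_eq_zero h
    rw [Int.negSucc_eq, neg_dvd]
    have h2 : ((Nat.succ n : ℕ) : ℤ) ∣ ((2 ^ 12 * 3 ^ 12 : ℕ) : ℤ) := Int.natCast_dvd_natCast.2 this
    push_cast at h2
    exact h2

theorem sm_ne [hr : Fact r.Prime] (h5 : 5 ≤ r) {d : ℤ} (h : sm d = true) : (d : ZMod r) ≠ 0 := by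
  intro h0
  have h1 := sm_dvd h
  rw [ZMod.intCast_zmod_eq_zero_iff_dvd] at h0
  have h2 : (r : ℤ) ∣ 2 ^ 12 * 3 ^ 12 := h0.trans h1
  have h3 : r ∣ 2 ^ 12 * 3 ^ 12 := by exact_mod_cast h2
  rcases (Nat.Prime.dvd_mul hr.out).1 h3 with h | h
  · have := Nat.le_of_dvd (by norm_num) (hr.out.dvd_of_dvd_pow h); omega
  · have := Nat.le_of_dvd (by norm_num) (hr.out.dvd_of_dvd_pow h); omega

theorem det4_zero [hr : Fact r.Prime] (h5 : 5 ≤ r) {α : Fin 4 → ZMod r} (hα : α ≠ 0) {x y z w : Q4} (hx : la α x = 0) (hy : la α y = 0)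
    (hz : la α z = 0) (hw : la α w = 0) : sm (det4 x y z w) = false := by
  rw [← Bool.not_eq_true]
  intro h
  apply hα
  funext i
  exact (mul_eq_zero.1 (det4_mul α x y z w hx hy hz hw i)).resolve_left (sm_ne h5 h)

variable {q : ZMod r}

/-- the functional is an eigenvector -/
def Eig (α : Fin 4 → ZMod r) (q : ZMod r) (N : M4) : Prop := ∀ x, la α (vm x N) = q * la α x

theorem la_rows {α : Fin 4 → ZMod r} {N P : M4} (h0 : la α P.r0 = 0) (h1 : la α P.r1 = 0) (h2 : la α P.r2 = 0) (h3 : la α P.r3 = 0)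
    {x : Q4} (hN : Eig α q N) (hx : la α x = 0) [hr : Fact r.Prime] (h5 : 5 ≤ r) (hα : α ≠ 0) : good x N P = false := by
  have hxN : la α (vm x N) = 0 := by rw [hN, hx, mul_zero]
  unfold good mdet
  rw [det4_zero h5 hα h0 h1 h2 h3, det4_zero h5 hα hx h0 h1 h2, det4_zero h5 hα hx h0 h1 h3, det4_zero h5 hα hx h0 h2 h3,
    det4_zero h5 hα hx h1 h2 h3, det4_zero h5 hα hx hxN h0 h1, det4_zero h5 hα hx hxN h0 h2, det4_zero h5 hα hx hxN h0 h3,
    det4_zero h5 hα hx hxN h1 h2, det4_zero h5 hα hx hxN h1 h3, det4_zero h5 hα hx hxN h2 h3]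
  rfl

/-- all rows of a matrix are killed -/
def Kill (α : Fin 4 → ZMod r) (P : M4) : Prop := la α P.r0 = 0 ∧ la α P.r1 = 0 ∧ la α P.r2 = 0 ∧ la α P.r3 = 0

theorem vm_i4 (x : Q4) : vm i4.r0 ⟨x, x, x, x⟩ = x := by
  obtain ⟨a, b, c, d⟩ := x
  simp [vm, i4, lc_eq]

theorem row0 (N : M4) : vm ⟨1, 0, 0, 0⟩ N = N.r0 := by
  obtain ⟨⟨a0, b0, c0, d0⟩, ⟨a1, b1, c1, d1⟩, ⟨a2, b2, c2, d2⟩, ⟨a3, b3, c3, d3⟩⟩ := N
  simp [vm, lc_eq]
theorem row1 (N : M4) : vm ⟨0, 1, 0, 0⟩ N = N.r1 := by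
  obtain ⟨⟨a0, b0, c0, d0⟩, ⟨a1, b1, c1, d1⟩, ⟨a2, b2, c2, d2⟩, ⟨a3, b3, c3, d3⟩⟩ := N
  simp [vm, lc_eq]
theorem row2 (N : M4) : vm ⟨0, 0, 1, 0⟩ N = N.r2 := by
  obtain ⟨⟨a0, b0, c0, d0⟩, ⟨a1, b1, c1, d1⟩, ⟨a2, b2, c2, d2⟩, ⟨a3, b3, c3, d3⟩⟩ := N
  simp [vm, lc_eq]
theorem row3 (N : M4) : vm ⟨0, 0, 0, 1⟩ N = N.r3 := by
  obtain ⟨⟨a0, b0, c0, d0⟩, ⟨a1, b1, c1, d1⟩, ⟨a2, b2, c2, d2⟩, ⟨a3, b3, c3, d3⟩⟩ := N
  simp [vm, lc_eq]

theorem eig_rows {α : Fin 4 → ZMod r} {N : M4} (h : Eig α q N) (i : Fin 4) :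
    la α (![N.r0, N.r1, N.r2, N.r3] i) = q * α i := by
  have e : ∀ i : Fin 4, la α (![(⟨1, 0, 0, 0⟩ : Q4), ⟨0, 1, 0, 0⟩, ⟨0, 0, 1, 0⟩, ⟨0, 0, 0, 1⟩] i) = α i := by
    intro i; fin_cases i <;> simp [la]
  fin_cases i
  · have := h ⟨1, 0, 0, 0⟩; rw [row0] at this; have h1 := e 0; simp only [cons_val_zero] at h1; simp only [Fin.zero_eta, cons_val_zero]; rw [this, h1]
  · have := h ⟨0, 1, 0, 0⟩; rw [row1] at this; have h1 := e 1; simp only [cons_val_one, cons_val_zero] at h1; simp only [Fin.mk_one, cons_val_one, cons_val_zero]; rw [this, h1]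
  · have := h ⟨0, 0, 1, 0⟩; rw [row2] at this; have h1 := e 2; simp only [cons_val] at h1; simp only [Fin.reduceFinMk, cons_val]; rw [this, h1]
  · have := h ⟨0, 0, 0, 1⟩; rw [row3] at this; have h1 := e 3; simp only [cons_val] at h1; simp only [Fin.reduceFinMk, cons_val]; rw [this, h1]

theorem la_mm {α : Fin 4 → ZMod r} {N : M4} (h : Eig α q N) :
    la α (mm N N).r0 = q * (q * α 0) ∧ la α (mm N N).r1 = q * (q * α 1) ∧ la α (mm N N).r2 = q * (q * α 2) ∧ la α (mm N N).r3 = q * (q * α 3) := by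
  have h0 := eig_rows h 0
  have h1 := eig_rows h 1
  have h2 := eig_rows h 2
  have h3 := eig_rows h 3
  simp only [cons_val_zero, cons_val_one, cons_val] at h0 h1 h2 h3
  refine ⟨?_, ?_, ?_, ?_⟩ <;> simp only [mm]
  · rw [h, h0]
  · rw [h, h1]
  · rw [h, h2]
  · rw [h, h3]

theorem la_i4 (α : Fin 4 → ZMod r) : la α i4.r0 = α 0 ∧ la α i4.r1 = α 1 ∧ la α i4.r2 = α 2 ∧ la α i4.r3 = α 3 := by
  simp [la, i4]

theorem kill3 {α : Fin 4 → ZMod r} {N : M4} (h : Eig α q N) (hq : q ^ 2 + q + 1 = 0) : Kill α (ph3 N) := by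
  obtain ⟨m0, m1, m2, m3⟩ := la_mm h
  obtain ⟨i0, i1, i2, i3⟩ := la_i4 α
  have h0 := eig_rows h 0
  have h1 := eig_rows h 1
  have h2 := eig_rows h 2
  have h3 := eig_rows h 3
  simp only [cons_val_zero, cons_val_one, cons_val] at h0 h1 h2 h3
  refine ⟨?_, ?_, ?_, ?_⟩ <;> simp only [ph3, ma, la_qa]
  · rw [m0, h0, i0]; linear_combination α 0 * hq
  · rw [m1, h1, i1]; linear_combination α 1 * hq
  · rw [m2, h2, i2]; linear_combination α 2 * hq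
  · rw [m3, h3, i3]; linear_combination α 3 * hq

theorem kill4 {α : Fin 4 → ZMod r} {N : M4} (h : Eig α q N) (hq : q ^ 2 + 1 = 0) : Kill α (ph4 N) := by
  obtain ⟨m0, m1, m2, m3⟩ := la_mm h
  obtain ⟨i0, i1, i2, i3⟩ := la_i4 α
  refine ⟨?_, ?_, ?_, ?_⟩ <;> simp only [ph4, ma, la_qa]
  · rw [m0, i0]; linear_combination α 0 * hq
  · rw [m1, i1]; linear_combination α 1 * hq
  · rw [m2, i2]; linear_combination α 2 * hq
  · rw [m3, i3]; linear_combination α 3 * hq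

theorem kill6 {α : Fin 4 → ZMod r} {N : M4} (h : Eig α q N) (hq : q ^ 2 - q + 1 = 0) : Kill α (ph6 N) := by
  obtain ⟨m0, m1, m2, m3⟩ := la_mm h
  obtain ⟨i0, i1, i2, i3⟩ := la_i4 α
  have h0 := eig_rows h 0
  have h1 := eig_rows h 1
  have h2 := eig_rows h 2
  have h3 := eig_rows h 3
  simp only [cons_val_zero, cons_val_one, cons_val] at h0 h1 h2 h3
  refine ⟨?_, ?_, ?_, ?_⟩ <;> simp only [ph6, ma, mn, la_qa, la_qn]
  · rw [m0, h0, i0]; linear_combination α 0 * hq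
  · rw [m1, h1, i1]; linear_combination α 1 * hq
  · rw [m2, h2, i2]; linear_combination α 2 * hq
  · rw [m3, h3, i3]; linear_combination α 3 * hq

end lin

/-! ### the Weyl group -/

theorem mm_assoc (A B C : M4) : mm (mm A B) C = mm A (mm B C) := by
  have h : ∀ x : Q4, vm (vm x B) C = vm x (mm B C) := by
    intro x
    obtain ⟨p, q, r', s⟩ := x
    obtain ⟨⟨a0, b0, c0, d0⟩, ⟨a1, b1, c1, d1⟩, ⟨a2, b2, c2, d2⟩, ⟨a3, b3, c3, d3⟩⟩ := B
    obtain ⟨⟨e0, f0, g0, h0⟩, ⟨e1, f1, g1, h1⟩, ⟨e2, f2, g2, h2⟩, ⟨e3, f3, g3, h3⟩⟩ := C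
    simp only [vm, mm, lc_eq, Q4.mk.injEq]
    refine ⟨?_, ?_, ?_, ?_⟩ <;> ring
  simp only [mm, h]

theorem mm_i4 (A : M4) : mm A i4 = A := by
  obtain ⟨⟨a0, b0, c0, d0⟩, ⟨a1, b1, c1, d1⟩, ⟨a2, b2, c2, d2⟩, ⟨a3, b3, c3, d3⟩⟩ := A
  simp [mm, vm, i4, lc_eq]

/-- the coefficients of a root -/
def vq (r : ℕ) : Q4 := ⟨vec chevF4 r 0, vec chevF4 r 1, vec chevF4 r 2, vec chevF4 r 3⟩

theorem vq_chk : ((List.range 4).all fun i => (List.range 48).all fun r => qeq (vq (chevF4.reflectRoot i r)) (vm (vq r) (S4.getD i i4))) = true := by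
  decide +kernel

theorem vq_simple : (qeq (vq (chevF4.simple 0)) i4.r0 && (qeq (vq (chevF4.simple 1)) i4.r1 && (qeq (vq (chevF4.simple 2)) i4.r2 && qeq (vq (chevF4.simple 3)) i4.r3))) = true := by
  decide +kernel

variable (E : DData chevF4)

/-- the matrix of an element of the Weyl group -/
noncomputable def nm (u : Equiv.Perm (Fin chevF4.nroots)) : M4 :=
  ⟨vq (u (E.rp.wsys.p (0 : Fin 4))), vq (u (E.rp.wsys.p (1 : Fin 4))), vq (u (E.rp.wsys.p (2 : Fin 4))), vq (u (E.rp.wsys.p (3 : Fin 4)))⟩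

theorem vq_w (i : Fin 4) (s : Fin chevF4.nroots) : vq (E.rp.wsys.w i s) = vm (vq s) (S4.getD i i4) := by
  have h := vq_chk
  rw [List.all_eq_true] at h
  have h1 := h i (List.mem_range.2 i.2)
  rw [List.all_eq_true] at h1
  have h2 := h1 s (List.mem_range.2 s.2)
  rw [← qeq_sound h2, w_val E i s]

theorem nm_w (i : Fin 4) (u : Equiv.Perm (Fin chevF4.nroots)) : nm E (E.rp.wsys.w i * u) = mm (nm E u) (S4.getD i i4) := by
  simp only [nm, mm, Equiv.Perm.mul_apply, vq_w]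

theorem nm_one : nm E 1 = i4 := by
  have h := vq_simple
  simp only [Bool.and_eq_true] at h
  obtain ⟨h0, h1, h2, h3⟩ := h
  have p0 : ((E.rp.wsys.p (0 : Fin 4) : Fin chevF4.nroots) : ℕ) = chevF4.simple 0 := p_val E _
  have p1 : ((E.rp.wsys.p (1 : Fin 4) : Fin chevF4.nroots) : ℕ) = chevF4.simple 1 := p_val E _
  have p2 : ((E.rp.wsys.p (2 : Fin 4) : Fin chevF4.nroots) : ℕ) = chevF4.simple 2 := p_val E _
  have p3 : ((E.rp.wsys.p (3 : Fin 4) : Fin chevF4.nroots) : ℕ) = chevF4.simple 3 := p_val E _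
  simp only [nm, Equiv.Perm.one_apply, p0, p1, p2, p3]
  rw [qeq_sound h0, qeq_sound h1, qeq_sound h2, qeq_sound h3]

theorem nm_mem {u : Equiv.Perm (Fin chevF4.nroots)} (hu : u ∈ E.rp.wsys.W) : ∃ A ∈ LA, ∃ C ∈ LC, nm E u = mm A C := by
  have hA := chkA_ok
  have hC := chkC_ok
  unfold chkA at hA
  unfold chkC at hC
  rw [Bool.and_eq_true, List.all_eq_true] at hA hC
  refine E.rp.wsys.W_induction (Q := fun u => ∃ A ∈ LA, ∃ C ∈ LC, nm E u = mm A C) ?_ ?_ hu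
  · exact ⟨i4, mem4_sound hA.1, i4, mem4_sound hC.1, by rw [nm_one, mm_i4]⟩
  · rintro i u - ⟨A, hA1, C, hC1, e⟩
    have hi : S4.getD (i : ℕ) i4 ∈ S4 := by
      have : (i : ℕ) < S4.length := i.2
      rw [List.getD_eq_getElem _ _ this]
      exact List.getElem_mem _
    have h1 := hC.2 C hC1
    rw [List.all_eq_true] at h1
    have h2 := h1 _ hi
    rw [Bool.or_eq_true] at h2
    rw [nm_w E i u, e, mm_assoc]
    rcases h2 with h2 | h2
    · exact ⟨A, hA1, _, mem4_sound h2, rfl⟩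
    · rw [List.any_eq_true] at h2
      obtain ⟨s', hs', h3⟩ := h2
      rw [meq_sound h3, ← mm_assoc]
      have h4 := hA.2 A hA1
      rw [List.all_eq_true] at h4
      exact ⟨_, mem4_sound (h4 s' hs'), C, hC1, rfl⟩

theorem ok_nm {u : Equiv.Perm (Fin chevF4.nroots)} (hu : u ∈ E.rp.wsys.W) : okN (nm E u) = true := by
  obtain ⟨A, hA, C, hC, e⟩ := nm_mem E hu
  have h := okAll
  rw [List.all_eq_true] at h
  have h1 := h A hA
  rw [List.all_eq_true] at h1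
  rw [e]; exact h1 C hC

/-! ### consequences -/

section

variable {r : ℕ} {u : Equiv.Perm (Fin chevF4.nroots)}

theorem eig_of' {α : Fin 4 → ZMod r} {q : ZMod r} (hj : ∀ j : Fin 4, la α (vq (u (E.rp.wsys.p j))) = q * α j) :
    Eig α q (nm E u) := by
  intro x
  rw [la_vm]
  have h0 := hj 0
  have h1 := hj 1
  have h2 := hj 2
  have h3 := hj 3
  have e0 : (nm E u).r0 = vq (u (E.rp.wsys.p (0 : Fin 4))) := rfl
  have e1 : (nm E u).r1 = vq (u (E.rp.wsys.p (1 : Fin 4))) := rfl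
  have e2 : (nm E u).r2 = vq (u (E.rp.wsys.p (2 : Fin 4))) := rfl
  have e3 : (nm E u).r3 = vq (u (E.rp.wsys.p (3 : Fin 4))) := rfl
  rw [e0, e1, e2, e3, h0, h1, h2, h3]
  unfold la
  ring

theorem eig_of {a : Fin chevF4.rank → ℤ} {q : ZMod r}
    (h : (fun i => ((a i : ℤ) : ZMod r)) ᵥ* (wm E u).map (Int.castRingHom (ZMod r)) = q • (fun i => ((a i : ℤ) : ZMod r))) :
    Eig (fun i : Fin 4 => ((a i : ℤ) : ZMod r)) q (nm E u) := by
  apply eig_of'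
  intro j
  have h1 : ∑ i : Fin 4, ((a i : ℤ) : ZMod r) * ((vec chevF4 (u (E.rp.wsys.p j)) i : ℤ) : ZMod r) = q * ((a j : ℤ) : ZMod r) := congrFun h j
  rw [Fin.sum_univ_four] at h1
  exact h1

theorem kill_det [hr : Fact r.Prime] (h5 : 5 ≤ r) {α : Fin 4 → ZMod r} (hα : α ≠ 0) {P : M4} (h : Kill α P) : sm (mdet P) = false :=
  det4_zero h5 hα h.1 h.2.1 h.2.2.1 h.2.2.2

/-- the values of `k` and the equations -/
def PK (k : ℕ) (q : ZMod r) : Prop := (k = 3 ∧ q ^ 2 + q + 1 = 0) ∨ (k = 4 ∧ q ^ 2 + 1 = 0) ∨ (k = 6 ∧ q ^ 2 - q + 1 = 0)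

theorem not_both (hu : u ∈ E.rp.wsys.W) {s : ℕ} [hr : Fact r.Prime] [hs : Fact s.Prime] (hr5 : 5 ≤ r) (hs5 : 5 ≤ s)
    {α : Fin 4 → ZMod r} (hα : α ≠ 0) {q : ZMod r} (h : Eig α q (nm E u)) {β : Fin 4 → ZMod s} (hβ : β ≠ 0) {q' : ZMod s}
    (h' : Eig β q' (nm E u)) {k l : ℕ} (hk : PK k q) (hl : PK l q') : k = l := by
  have ho := ok_nm E hu
  unfold okN at ho
  simp only [Bool.and_eq_true] at ho
  obtain ⟨⟨h1, h2, h3⟩, -⟩ := ho
  rcases hk with ⟨rfl, hk⟩ | ⟨rfl, hk⟩ | ⟨rfl, hk⟩ <;> rcases hl with ⟨rfl, hl⟩ | ⟨rfl, hl⟩ | ⟨rfl, hl⟩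
  · rfl
  · rw [kill_det hr5 hα (kill3 h hk), kill_det hs5 hβ (kill4 h' hl)] at h1; simp at h1
  · rw [kill_det hr5 hα (kill3 h hk), kill_det hs5 hβ (kill6 h' hl)] at h2; simp at h2
  · rw [kill_det hr5 hα (kill4 h hk), kill_det hs5 hβ (kill3 h' hl)] at h1; simp at h1
  · rfl
  · rw [kill_det hr5 hα (kill4 h hk), kill_det hs5 hβ (kill6 h' hl)] at h3; simp at h3
  · rw [kill_det hr5 hα (kill6 h hk), kill_det hs5 hβ (kill3 h' hl)] at h2; simp at h2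
  · rw [kill_det hr5 hα (kill6 h hk), kill_det hs5 hβ (kill4 h' hl)] at h3; simp at h3
  · rfl

theorem reg_B3 (hu : u ∈ E.rp.wsys.W) [hr : Fact r.Prime] (hr5 : 5 ≤ r) {α : Fin 4 → ZMod r} (hα : α ≠ 0) {q : ZMod r}
    (h : Eig α q (nm E u)) (hq : q ^ 2 + q + 1 = 0 ∨ q ^ 2 - q + 1 = 0) (ha : isa (nm E u) = true) {x : Q4} (hx : x ∈ PB3) :
    la α x ≠ 0 := by
  intro h0
  have ho := ok_nm E hu
  unfold okN at ho
  rw [ha] at ho
  simp only [Bool.and_eq_true, Bool.not_true, Bool.false_or, List.all_eq_true] at ho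
  obtain ⟨-, h1, -⟩ := ho
  obtain ⟨h2, h3⟩ := h1 x hx
  rcases hq with hq | hq
  · obtain ⟨k0, k1, k2, k3⟩ := kill3 h hq
    rw [la_rows k0 k1 k2 k3 h h0 hr5 hα] at h2; simp at h2
  · obtain ⟨k0, k1, k2, k3⟩ := kill6 h hq
    rw [la_rows k0 k1 k2 k3 h h0 hr5 hα] at h3; simp at h3

theorem reg_B2 (hu : u ∈ E.rp.wsys.W) [hr : Fact r.Prime] (hr5 : 5 ≤ r) {α : Fin 4 → ZMod r} (hα : α ≠ 0) {q : ZMod r}
    (h : Eig α q (nm E u)) (hq : q ^ 2 + 1 = 0) (ha : isa (nm E u) = true) (hd : isd (nm E u) = true) {x : Q4} (hx : x ∈ PB2) :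
    la α x ≠ 0 := by
  intro h0
  have ho := ok_nm E hu
  unfold okN at ho
  rw [ha, hd] at ho
  simp only [Bool.and_eq_true, Bool.not_true, Bool.false_or, List.all_eq_true] at ho
  obtain ⟨-, -, h1⟩ := ho
  have h2 := h1 x hx
  obtain ⟨k0, k1, k2, k3⟩ := kill4 h hq
  rw [la_rows k0 k1 k2 k3 h h0 hr5 hα] at h2; simp at h2

end

end Cfsg.Agent.ChevPG
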