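import Cfsg.Agent.ChevPG.Reg
import Cfsg.Agent.ChevPG.WF4
import Cfsg.Agent.ChevF.TorRows
import Cfsg.Agent.ChevF.E6Tor

set_option autoImplicit false

/-!
# Non-adjacent primes in the prime graph of F4(2^n) (helper19)
-/

namespace Cfsg.Agent.ChevPG

open Cfsg.Lie Cfsg.Agent.Chev Cfsg.Agent.ChevGrp Cfsg.Agent.ChevF Matrix Polynomial

section poly

variable {l : ℕ}

theorem vecMul_aeval {R : Type*} [CommRing R] {M : Matrix (Fin l) (Fin l) R} {a : Fin l → R} {q : R} (h : a ᵥ* M = q • a) (p : R[X]) :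
    a ᵥ* aeval M p = p.eval q • a := by
  have hpow : ∀ k : ℕ, a ᵥ* (M ^ k) = q ^ k • a := by
    intro k
    induction k with
    | zero => simp
    | succ k ih => rw [pow_succ, ← Matrix.vecMul_vecMul, ih, Matrix.smul_vecMul, h, smul_smul, ← pow_succ]
  rw [Polynomial.aeval_eq_sum_range, Matrix.vecMul_sum, Polynomial.eval_eq_sum_range, Finset.sum_smul]
  refine Finset.sum_congr rfl fun i _ => ?_
  rw [Matrix.vecMul_smul, hpow, smul_smul]

theorem eval_cyc_zero {M : Matrix (Fin l) (Fin l) ℤ} {d r : ℕ} [hr : Fact r.Prime]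
    (hM : aeval (M.map (Int.castRingHom ℚ)) (cyclotomic d ℚ) = 0) {a : Fin l → ZMod r} (ha : a ≠ 0) {q : ZMod r}
    (h : a ᵥ* M.map (Int.castRingHom (ZMod r)) = q • a) : (cyclotomic d (ZMod r)).eval q = 0 := by
  have haev : ∀ (R : Type) [CommRing R] (p : ℤ[X]), (aeval M p).map (Int.castRingHom R) = aeval (M.map (Int.castRingHom R)) (p.map (Int.castRingHom R)) := fun R _ p =>
    Polynomial.map_aeval_eq_aeval_map (R := ℤ) (S := Matrix (Fin l) (Fin l) ℤ) (T := R)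
        (U := Matrix (Fin l) (Fin l) R) (φ := Int.castRingHom R)
        (ψ := RingHom.mapMatrix (m := Fin l) (Int.castRingHom R)) (by ext; simp) p M
  have h1 : aeval M (cyclotomic d ℤ) = 0 := by
    rw [← map_cyclotomic d (Int.castRingHom ℚ), ← haev] at hM
    ext i j
    have := congrFun (congrFun hM i) j
    rw [Matrix.map_apply, Matrix.zero_apply, eq_intCast, Int.cast_eq_zero] at this
    exact this
  have h2 : aeval (M.map (Int.castRingHom (ZMod r))) (cyclotomic d (ZMod r)) = 0 := by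
    rw [← map_cyclotomic d (Int.castRingHom (ZMod r)), ← haev, h1]
    ext i j; simp
  have h3 := vecMul_aeval h (cyclotomic d (ZMod r))
  rw [h2, Matrix.vecMul_zero, eq_comm, smul_eq_zero] at h3
  exact h3.resolve_right ha

end poly

section num

theorem order_dvd {ℓ q : ℕ} [hℓ : Fact ℓ.Prime] (hq : ¬ ℓ ∣ q) : orderOf (q : ZMod ℓ) ∣ ℓ - 1 := by
  have h0 : (q : ZMod ℓ) ≠ 0 := fun h => hq ((ZMod.natCast_eq_zero_iff _ _).1 h)
  exact orderOf_dvd_of_pow_eq_one (ZMod.pow_card_sub_one_eq_one h0)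

theorem z3_ne : ∀ x : ZMod 3, x ^ 4 - x ^ 2 + 1 ≠ 0 := by decide

theorem not_dvd_of_order {p q : ℕ} [hp : Fact p.Prime] (h : 0 < orderOf (q : ZMod p)) : ¬ p ∣ q := by
  intro hd
  have h0 : (q : ZMod p) = 0 := (ZMod.natCast_eq_zero_iff _ _).2 hd
  have h1 := pow_orderOf_eq_one (q : ZMod p)
  rw [h0] at h h1
  rw [zero_pow h.ne'] at h1
  exact zero_ne_one h1

theorem not_dvd_W {ℓ : ℕ} (hℓ : ℓ.Prime) (h5 : 5 ≤ ℓ) : ¬ ℓ ∣ 1152 := by
  intro hd
  have h1 : ℓ ∣ 2 ^ 7 * 3 ^ 2 := by simpa using hd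
  rcases (Nat.Prime.dvd_mul hℓ).1 h1 with h2 | h2
  · have := Nat.le_of_dvd (by norm_num) (hℓ.dvd_of_dvd_pow h2); omega
  · have := Nat.le_of_dvd (by norm_num) (hℓ.dvd_of_dvd_pow h2); omega

theorem five_le {ℓ q : ℕ} [hℓ : Fact ℓ.Prime] (hq : ¬ ℓ ∣ q) (h3 : 3 ≤ orderOf (q : ZMod ℓ)) : 5 ≤ ℓ := by
  have h1 := Nat.le_of_dvd (by have := hℓ.out.two_le; omega) (order_dvd hq)
  have h2 := hℓ.out.two_le
  have h4 : ℓ ≠ 4 := by rintro rfl; exact absurd hℓ.out (by norm_num)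
  omega

theorem dvd_card_sub {ℓ q N : ℕ} [hℓ : Fact ℓ.Prime] (hq : ¬ ℓ ∣ q) (hq0 : 0 < q) (hN : ℓ - 1 ∣ N) : ℓ ∣ q ^ N - 1 := by
  have h0 : (q : ZMod ℓ) ≠ 0 := fun h => hq ((ZMod.natCast_eq_zero_iff _ _).1 h)
  rw [← ZMod.natCast_eq_zero_iff, Nat.cast_sub (Nat.one_le_pow _ _ hq0)]
  obtain ⟨k, rfl⟩ := hN
  push_cast
  rw [pow_mul, ZMod.pow_card_sub_one_eq_one h0, one_pow, sub_self]

theorem pk_of_order {r : ℕ} [hr : Fact r.Prime] {q : ZMod r} {k : ℕ} (h : orderOf q = k) (hk : k = 3 ∨ k = 4 ∨ k = 6) : PK k q := by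
  have hp : q ^ k = 1 := by rw [← h]; exact pow_orderOf_eq_one q
  have hne : ∀ m, 0 < m → m < k → q ^ m ≠ 1 := fun m h1 h2 => by
    rw [← h] at h2
    exact pow_ne_one_of_lt_orderOf h1.ne' h2
  rcases hk with rfl | rfl | rfl
  · left
    refine ⟨rfl, ?_⟩
    have h1 := hne 1 (by norm_num) (by norm_num)
    rw [pow_one] at h1
    have h2 : (q - 1) * (q ^ 2 + q + 1) = 0 := by linear_combination hp
    exact (mul_eq_zero.1 h2).resolve_left (sub_ne_zero.2 h1)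
  · right; left
    refine ⟨rfl, ?_⟩
    have h1 := hne 2 (by norm_num) (by norm_num)
    have h2 : (q ^ 2 - 1) * (q ^ 2 + 1) = 0 := by linear_combination hp
    exact (mul_eq_zero.1 h2).resolve_left (sub_ne_zero.2 h1)
  · right; right
    refine ⟨rfl, ?_⟩
    have h1 := hne 3 (by norm_num) (by norm_num)
    have h3 := hne 2 (by norm_num) (by norm_num)
    have h2 : (q ^ 3 - 1) * ((q + 1) * (q ^ 2 - q + 1)) = 0 := by linear_combination hp
    have h4 := (mul_eq_zero.1 h2).resolve_left (sub_ne_zero.2 h1)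
    refine (mul_eq_zero.1 h4).resolve_left ?_
    intro h5
    apply h3
    linear_combination (q - 1) * h5

end num

section f4

variable {F : Type*} [Field F] [Fintype F]

theorem hF4 : chevF4 ∈ data := by simp [data]

theorem torF4 (L : Type*) [Field L] [Fintype L] (χ : ℕ → Lˣ) : ChevU.torHom chevF4 L χ ∈ chevF4.diagonalSubgroup L := by
  refine torHom_mem hF4 ?_ χ
  have := Cfsg.Agent.ChevU.card_diag (F := L) rfl (chevF4, 1) (by simp)
  rw [one_mul] at this; exact this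

theorem ev_of_sq {K : Type*} [Field K] [CharP K 2] (E : DData chevF4) {t : GL chevF4.Idx K} (ht : t ∈ chevF4.diagonalSubgroup K) (h : t ^ 2 = 1) : t = 1 := by
  apply ev_ext E hF4 ht (one_mem _)
  intro i
  have h1 : ev t (E.rp.wsys.p i) ^ 2 = 1 := by rw [← ev_pow hF4 ht, h, ev_one]
  rw [ev_one]
  have h2 : (ev t (E.rp.wsys.p i) - 1) ^ 2 = 0 := by
    have h3 : (2 : K) = 0 := CharTwo.two_eq_zero
    linear_combination h1 + (1 - ev t (E.rp.wsys.p i)) * h3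
  exact sub_eq_zero.1 (pow_eq_zero_iff (two_ne_zero) |>.1 h2)

/-- a prime of order 8 or 12 is joined only to primes of the same order -/
theorem nonadj_reg {n q ℓ r d : ℕ} (hF : Fintype.card F = q) (hq : q = 2 ^ n) [hℓ : Fact ℓ.Prime] [hr : Fact r.Prime]
    (hord : orderOf (q : ZMod ℓ) = d) (hd : d = 8 ∨ d = 12) {z : ↥(chevF4.group F)}
    (hz : orderOf z = ℓ * r) : r ≠ 2 ∧ orderOf (q : ZMod r) = d := by
  obtain ⟨E⟩ := DData.nonempty_of_mem (D := chevF4) hF4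
  have hq0 : 0 < q := by rw [hq]; positivity
  have hℓq : ¬ ℓ ∣ q := not_dvd_of_order (by rw [hord]; rcases hd with rfl | rfl <;> norm_num)
  have h5 : 5 ≤ ℓ := five_le hℓq (by rw [hord]; rcases hd with rfl | rfl <;> norm_num)
  have hW : ¬ ℓ ∣ Nat.card E.rp.wsys.W := by rw [card_W_F4]; exact not_dvd_W hℓ.out h5
  have hℓ1 : 0 < ℓ - 1 := by omega
  have hr1 : 0 < r - 1 := by have := hr.out.two_le; omega
  obtain ⟨K, i1, i2, ι, σ, h1, h2, h3, h4⟩ := exists_ext hF (Nat.mul_pos hℓ1 hr1)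
  have hdt : d.totient = chevF4.rank := by rcases hd with rfl | rfl <;> decide
  obtain ⟨t', ht', ht1, htr, u, hu, hM, hev⟩ := reg_frame E hF4 ι σ (F := F) (K := K) (d := d) (ℓ := ℓ) (r := r) h2 h3 hord hdt
    (by rcases hd with rfl | rfl <;> norm_num) hW (by rw [h1]; exact dvd_card_sub hℓq hq0 (Dvd.intro _ rfl)) hz
  have hr2 : r ≠ 2 := by
    rintro rfl
    have hc : CharP K 2 := by
      obtain ⟨p, hp⟩ := CharP.exists K
      haveI := hp
      have hp1 : p.Prime := CharP.char_is_prime K p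
      haveI : Fact p.Prime := ⟨hp1⟩
      obtain ⟨m, hm, e⟩ := FiniteField.card K p
      rw [h1, hq, ← pow_mul] at e
      have hp2 : p ∣ 2 ^ (n * ((ℓ - 1) * (2 - 1))) := by rw [e]; exact dvd_pow_self p m.ne_zero
      have := (Nat.prime_dvd_prime_iff_eq hp1 Nat.prime_two).1 (hp1.dvd_of_dvd_pow hp2)
      rw [← this]; exact hp
    exact ht1 (ev_of_sq E ht' htr)
  refine ⟨hr2, ?_⟩
  have hrq : ¬ r ∣ q := by
    intro h
    rw [hq] at h
    exact hr2 ((Nat.prime_dvd_prime_iff_eq hr.out Nat.prime_two).1 (hr.out.dvd_of_dvd_pow h))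
  obtain ⟨ζ, hζ, a, ha, ha0, haM⟩ := log_data E hF4 (r := r) (by rw [h1]; exact dvd_card_sub hrq hq0 (Dvd.intro_left _ rfl)) ht' ht1 htr hev
  have hev0 := eval_cyc_zero hM ha0 haM
  have hrd : ¬ r ∣ d := by
    intro h
    rcases hd with rfl | rfl
    · have h6 : r ∣ 2 ^ 3 := h
      exact hr2 ((Nat.prime_dvd_prime_iff_eq hr.out Nat.prime_two).1 (hr.out.dvd_of_dvd_pow h6))
    · rcases prime_dvd_12 hr.out h with rfl | rfl
      · exact hr2 rfl
      · rw [cyc12] at hev0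
        simp only [eval_add, eval_sub, eval_pow, eval_X, eval_one] at hev0
        exact z3_ne _ hev0
  haveI : NeZero (d : ZMod r) := ⟨fun h => hrd ((ZMod.natCast_eq_zero_iff d r).1 h)⟩
  have h6 : IsPrimitiveRoot (q : ZMod r) d := by
    rw [← isRoot_cyclotomic_iff, IsRoot.def]; exact hev0
  exact h6.eq_orderOf.symm

/-- different orders in `{3, 4, 6}` -/
theorem nonadj_346 {n q ℓ r k l : ℕ} (hF : Fintype.card F = q) (hq : q = 2 ^ n) [hℓ : Fact ℓ.Prime] [hr : Fact r.Prime]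
    (hk : orderOf (q : ZMod ℓ) = k) (hl : orderOf (q : ZMod r) = l) (hk' : k = 3 ∨ k = 4 ∨ k = 6) (hl' : l = 3 ∨ l = 4 ∨ l = 6)
    {z : ↥(chevF4.group F)} (hz : orderOf z = ℓ * r) : k = l := by
  obtain ⟨E⟩ := DData.nonempty_of_mem (D := chevF4) hF4
  have hq0 : 0 < q := by rw [hq]; positivity
  have hℓ3 : 3 ≤ orderOf (q : ZMod ℓ) := by rw [hk]; omega
  have hr3 : 3 ≤ orderOf (q : ZMod r) := by rw [hl]; omega
  have hℓq : ¬ ℓ ∣ q := not_dvd_of_order (by omega)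
  have hrq : ¬ r ∣ q := not_dvd_of_order (by omega)
  have hℓ5 := five_le hℓq hℓ3
  have hr5 := five_le hrq hr3
  have hWℓ : ¬ ℓ ∣ Nat.card E.rp.wsys.W := by rw [card_W_F4]; exact not_dvd_W hℓ.out hℓ5
  have hWr : ¬ r ∣ Nat.card E.rp.wsys.W := by rw [card_W_F4]; exact not_dvd_W hr.out hr5
  have hℓ1 : 0 < ℓ - 1 := by omega
  have hr1 : 0 < r - 1 := by omega
  obtain ⟨K, i1, i2, ι, σ, h1, h2, h3, h4⟩ := exists_ext hF (Nat.mul_pos hℓ1 hr1)
  have hℓK : ℓ ∣ Fintype.card K - 1 := by rw [h1]; exact dvd_card_sub hℓq hq0 (Dvd.intro _ rfl)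
  have hrK : r ∣ Fintype.card K - 1 := by rw [h1]; exact dvd_card_sub hrq hq0 (Dvd.intro_left _ rfl)
  have hℓ0 := hℓ.out.pos
  have hr0 := hr.out.pos
  set y : GL chevF4.Idx F := ((z ^ r : ↥(chevF4.group F)) : GL chevF4.Idx F) with hy
  set x : GL chevF4.Idx F := ((z ^ ℓ : ↥(chevF4.group F)) : GL chevF4.Idx F) with hx
  have hyℓ : y ^ ℓ = 1 := by
    rw [hy, ← Subgroup.coe_pow, ← pow_mul, mul_comm, ← hz, pow_orderOf_eq_one]; rfl
  have hxr : x ^ r = 1 := by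
    rw [hx, ← Subgroup.coe_pow, ← pow_mul, ← hz, pow_orderOf_eq_one]; rfl
  have hy1 : y ≠ 1 := by
    intro h
    have h1 : z ^ r = 1 := Subtype.ext h
    have h2 := Nat.le_of_dvd hr0 (orderOf_dvd_of_pow_eq_one h1)
    rw [hz] at h2
    nlinarith [hℓ.out.two_le]
  have hx1 : x ≠ 1 := by
    intro h
    have h1 : z ^ ℓ = 1 := Subtype.ext h
    have h2 := Nat.le_of_dvd hℓ0 (orderOf_dvd_of_pow_eq_one h1)
    rw [hz] at h2
    nlinarith [hr.out.two_le]
  have hxy : x * y = y * x := by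
    rw [hx, hy, ← Subgroup.coe_mul, ← Subgroup.coe_mul, ← pow_add, ← pow_add, add_comm]
  have hyι : glMap chevF4.Idx ι y ^ ℓ = 1 := by rw [← map_pow, hyℓ, map_one]
  have hxι : glMap chevF4.Idx ι x ^ r = 1 := by rw [← map_pow, hxr, map_one]
  obtain ⟨g₁, hg₁, ht⟩ := exists_conj_in E hF4 hℓK hWℓ (diag_le_grp (K := K) E hF4) le_rfl (glMap_mem ι (z ^ r).2) hyι
  set t : GL chevF4.Idx K := g₁⁻¹ * glMap chevF4.Idx ι y * g₁ with ht_def
  have hH1 : chevF4.diagonalSubgroup K ≤ chevF4.group K ⊓ Subgroup.centralizer {t} := by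
    refine le_inf (diag_le_grp (K := K) E hF4) ?_
    intro w hw
    rw [Subgroup.mem_centralizer_iff]
    rintro _ rfl
    exact diag_comm hF4 ht hw
  have hx1' : g₁⁻¹ * glMap chevF4.Idx ι x * g₁ ∈ chevF4.group K ⊓ Subgroup.centralizer {t} := by
    refine Subgroup.mem_inf.2 ⟨mul_mem (mul_mem (inv_mem hg₁) (glMap_mem ι (z ^ ℓ).2)) hg₁, ?_⟩
    rw [Subgroup.mem_centralizer_iff]
    rintro _ rfl
    rw [ht_def]
    have h6 : glMap chevF4.Idx ι x * glMap chevF4.Idx ι y = glMap chevF4.Idx ι y * glMap chevF4.Idx ι x := by rw [← map_mul, hxy, map_mul]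
    calc g₁⁻¹ * glMap chevF4.Idx ι y * g₁ * (g₁⁻¹ * glMap chevF4.Idx ι x * g₁) = g₁⁻¹ * (glMap chevF4.Idx ι y * glMap chevF4.Idx ι x) * g₁ := by group
      _ = g₁⁻¹ * (glMap chevF4.Idx ι x * glMap chevF4.Idx ι y) * g₁ := by rw [h6]
      _ = _ := by group
  obtain ⟨h, hh, hxh⟩ := exists_conj_in E hF4 hrK hWr hH1 inf_le_left hx1' (conj_pow_eq hxι)
  have hht : h⁻¹ * t * h = t := by
    have := (Subgroup.mem_centralizer_iff.1 hh.2) t rfl
    rw [mul_assoc, this]; group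
  have hg : g₁ * h ∈ chevF4.group K := mul_mem hg₁ hh.1
  have ey : (g₁ * h)⁻¹ * glMap chevF4.Idx ι y * (g₁ * h) = t := by
    rw [← hht, ht_def]; group
  have hyd : (g₁ * h)⁻¹ * glMap chevF4.Idx ι y * (g₁ * h) ∈ chevF4.diagonalSubgroup K := by rw [ey]; exact ht
  have hxd : (g₁ * h)⁻¹ * glMap chevF4.Idx ι x * (g₁ * h) ∈ chevF4.diagonalSubgroup K := by
    have : (g₁ * h)⁻¹ * glMap chevF4.Idx ι x * (g₁ * h) = h⁻¹ * (g₁⁻¹ * glMap chevF4.Idx ι x * g₁) * h := by group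
    rw [this]; exact hxh
  obtain ⟨b, hb, m, hm, w, hw, hbmw, u, hu, hact, hf, -⟩ := frame E hF4 ι h2 h3 hg
  obtain ⟨ζ, hζ, a, ha, ha0, haM⟩ := log_data E hF4 (r := ℓ) hℓK hyd
    (conj_ne_one (fun h => hy1 (glMap_injective ι (by rw [h, map_one])))) (conj_pow_eq hyι) (hf y hyd).1
  obtain ⟨ζ', hζ', a', ha', ha0', haM'⟩ := log_data E hF4 (r := r) hrK hxd
    (conj_ne_one (fun h => hx1 (glMap_injective ι (by rw [h, map_one])))) (conj_pow_eq hxι) (hf x hxd).1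
  have e1 := eig_of E haM
  have e2 := eig_of E haM'
  exact not_both E hu hℓ5 hr5 ha0 e1 ha0' e2 (pk_of_order hk hk') (pk_of_order hl hl')

end f4

end Cfsg.Agent.ChevPG
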