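import Cfsg.Agent.ChevPG.NonAdj

set_option autoImplicit false
set_option maxRecDepth 100000

/-!
# Elements of twisted tori in Levi subgroups of F4(q) (helper19)
-/

namespace Cfsg.Agent.ChevPG

open Cfsg.Lie Cfsg.Agent.Chev Cfsg.Agent.ChevGrp Cfsg.Agent.ChevF Matrix

theorem vec_bd : ((List.range 48).all fun s => (List.range 4).all fun i => decide (-4 ≤ vec chevF4 s i) && decide (vec chevF4 s i ≤ 4)) = true := by
  decide +kernel

theorem vec_cor : ((List.range 48).all fun s => (List.range 4).all fun i => !decide ((chevF4.coroot.getD s #[]).getD i 0 = 0) ||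
    decide (vec chevF4 s i = 0)) = true := by
  decide +kernel

theorem vec_bd' {s i : ℕ} (hs : s < 48) (hi : i < 4) : -4 ≤ vec chevF4 s i ∧ vec chevF4 s i ≤ 4 := by
  have h := vec_bd
  rw [List.all_eq_true] at h
  have h1 := h s (List.mem_range.2 hs)
  rw [List.all_eq_true] at h1
  have h2 := h1 i (List.mem_range.2 hi)
  simpa using h2

theorem vec_of_sub {J : Set ℕ} {s i : ℕ} (hs : chevF4.InRootSub J s) (hi : i < 4) (hJ : i ∉ J) : vec chevF4 s i = 0 := by
  have h := vec_cor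
  rw [List.all_eq_true] at h
  have h1 := h s (List.mem_range.2 hs.1)
  rw [List.all_eq_true] at h1
  have h2 := h1 i (List.mem_range.2 hi)
  have h3 := hs.2 i hi hJ
  rw [h3] at h2
  simpa using h2

section

variable (E : DData chevF4) {F K : Type*} [Field F] [Fintype F] [Field K] [Fintype K]

/-- the cocharacters -/
noncomputable def zz (i : ℕ) (c : Kˣ) : GL chevF4.Idx K := ChevU.torHom chevF4 K (fun j => if j = i then c else 1)

theorem zz_mem (i : ℕ) (c : Kˣ) : zz i c ∈ chevF4.diagonalSubgroup K := torF4 K _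

theorem ev_zz {i : ℕ} (hi : i < 4) (c : Kˣ) (s : Fin chevF4.nroots) : ev (zz i c) s = ((c ^ (vec chevF4 s i) : Kˣ) : K) := by
  unfold zz
  rw [ev_torHom]
  congr 1
  unfold chr
  rw [Finset.prod_eq_single i]
  · show (if i = i then c else 1 : Kˣ) ^ _ = _
    rw [if_pos rfl]
  · intro j _ hj
    show (if j = i then c else 1 : Kˣ) ^ _ = _
    rw [if_neg hj, _root_.one_zpow]
  · intro h; exact absurd (Finset.mem_range.mpr hi) h

/-- elements of Levi subgroups commute with the cocharacters -/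
theorem levi_comm (ι : F →+* K) {J : Set ℕ} {i : ℕ} (hi : i < 4) (hJ : i ∉ J) (c : Kˣ) {y : GL chevF4.Idx F}
    (hy : y ∈ chevF4.leviSubgroup F J) : glMap chevF4.Idx ι y * zz i c = zz i c * glMap chevF4.Idx ι y := by
  have G := good_of_mem hF4
  have hle : chevF4.leviSubgroup F J ≤ (Subgroup.centralizer {(zz i c : GL chevF4.Idx K)}).comap (glMap chevF4.Idx ι) := by
    unfold ChevalleyDatum.leviSubgroup
    rw [sup_le_iff, Subgroup.closure_le]
    constructor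
    · intro w hw
      rw [Subgroup.mem_comap, Subgroup.mem_centralizer_iff]
      rintro _ rfl
      exact diag_comm hF4 (zz_mem i c) (glMap_mem_diag ι hw)
    · rintro g ⟨s, t, hs, hg⟩
      have hg' : g = xU G.toGood2 s t := Units.ext hg
      show glMap chevF4.Idx ι g ∈ Subgroup.centralizer {(zz i c : GL chevF4.Idx K)}
      rw [hg', glMap_xU, Subgroup.mem_centralizer_iff]
      rintro _ rfl
      have h1 := diag_mul_xU hF4 (zz_mem i c) ⟨s, hs.1⟩ (ι t)
      rw [ev_zz hi, vec_of_sub hs hi hJ, zpow_zero, Units.val_one, one_mul] at h1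
      calc zz i c * xU G.toGood2 s (ι t) = (zz i c * xU G.toGood2 s (ι t) * (zz i c)⁻¹) * zz i c := by group
        _ = _ := by
          have h2 : zz i c * xU G.toGood2 s (ι t) * (zz i c)⁻¹ = xU G.toGood2 s (ι t) := h1
          rw [h2]
  have h := hle hy
  rw [Subgroup.mem_comap, Subgroup.mem_centralizer_iff] at h
  exact (h _ rfl).symm

theorem zpow_inj {c : Kˣ} (hc : orderOf c = Fintype.card K - 1) (hQ : 9 < Fintype.card K) {a b : ℤ} (ha : -4 ≤ a) (ha' : a ≤ 4) (hb : -4 ≤ b) (hb' : b ≤ 4)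
    (h : c ^ a = c ^ b) : a = b := by
  have h1 : c ^ (a - b) = 1 := by rw [_root_.zpow_sub, h]; group
  rw [← orderOf_dvd_iff_zpow_eq_one, hc] at h1
  by_contra hne
  have h2 : a - b ≠ 0 := sub_ne_zero.2 hne
  have h3 := Int.le_of_dvd (abs_pos.2 h2) ((dvd_abs _ _).2 h1)
  have h4 : |a - b| ≤ 8 := by rw [abs_le]; constructor <;> linarith
  have h5 : ((Fintype.card K - 1 : ℕ) : ℤ) ≤ 8 := le_trans h3 h4
  omega

theorem twist_main (ι : F →+* K) (σ : K →+* K) {q N : ℕ} (hq0 : 0 < q) (hσ : ∀ t, σ t = t ^ q) (hι : ∀ t, σ (ι t) = ι t)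
    (hfix : ∀ t, σ t = t → ∃ t₀, ι t₀ = t) (hK : Fintype.card K = q ^ N) (hN : 0 < N) {s r k : ℕ} [hs : Fact s.Prime] [hr : Fact r.Prime]
    (hs5 : 5 ≤ s) (hr5 : 5 ≤ r) (hsK : s ∣ Fintype.card K - 1) (hrK : r ∣ Fintype.card K - 1) (hk0 : 0 < k)
    (hos : orderOf (q : ZMod s) = k) (hor : orderOf (q : ZMod r) = k) (hrk : ¬ r ∣ k) (hQ : 9 < Fintype.card K)
    (I : Set ℕ) (hI : ∀ i ∈ I, i < 4) (J : Set ℕ) (hIJ : ∀ i ∈ I, i ∉ J) {y : GL chevF4.Idx F} (hy : y ∈ chevF4.leviSubgroup F J)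
    (hyG : y ∈ chevF4.group F) (hy1 : y ≠ 1) (hys : y ^ s = 1)
    (hreg : ∀ u ∈ E.rp.wsys.W, (∀ i ∈ I, ∀ x : Fin chevF4.nroots, vec chevF4 (u x) i = vec chevF4 x i) → ∀ α : Fin 4 → ZMod s, α ≠ 0 →
      Eig α (q : ZMod s) (nm E u) → ∀ x : Fin chevF4.nroots, (∀ i ∈ I, vec chevF4 x i = 0) → la α (vq x) ≠ 0) :
    ∃ y₂ ∈ chevF4.group F, y₂ ≠ 1 ∧ y₂ ^ r = 1 ∧ y * y₂ = y₂ * y := by
  have G := good_of_mem hF4
  have hWs : ¬ s ∣ Nat.card E.rp.wsys.W := by rw [card_W_F4]; exact not_dvd_W hs.out hs5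
  -- a generator
  obtain ⟨c, hc⟩ := IsCyclic.exists_generator (α := Kˣ)
  have hco : orderOf c = Fintype.card K - 1 := by
    rw [orderOf_eq_card_of_forall_mem_zpowers hc, Nat.card_units, Nat.card_eq_fintype_card]
  have hzQ : ∀ i, (zz i c : GL chevF4.Idx K) ^ (Fintype.card K) = zz i c := by
    intro i
    unfold zz
    rw [← map_pow]
    congr 1
    funext j
    rw [Pi.pow_apply]
    split_ifs with h
    · apply Units.ext
      rw [Units.val_pow_eq_pow_val, FiniteField.pow_card]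
    · rw [one_pow]
  set Z : Set (GL chevF4.Idx K) := {w | ∃ i ∈ I, w = zz i c} with hZ
  set H : Subgroup (GL chevF4.Idx K) := chevF4.group K ⊓ Subgroup.centralizer Z with hH
  have hTH : chevF4.diagonalSubgroup K ≤ H := by
    refine le_inf (diag_le_grp (K := K) E hF4) ?_
    intro w hw
    rw [Subgroup.mem_centralizer_iff]
    rintro _ ⟨i, _, rfl⟩
    exact diag_comm hF4 (zz_mem i c) hw
  have hyH : glMap chevF4.Idx ι y ∈ H := by
    refine Subgroup.mem_inf.2 ⟨glMap_mem ι hyG, ?_⟩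
    rw [Subgroup.mem_centralizer_iff]
    rintro _ ⟨i, hi, rfl⟩
    exact (levi_comm ι (hI i hi) (hIJ i hi) c hy).symm
  have hyι : glMap chevF4.Idx ι y ^ s = 1 := by rw [← map_pow, hys, map_one]
  obtain ⟨g, hgH, ht⟩ := exists_conj_in E hF4 hsK hWs hTH inf_le_left hyH hyι
  have hg : g ∈ chevF4.group K := (Subgroup.mem_inf.1 hgH).1
  have hgZ : ∀ i ∈ I, g * zz i c = zz i c * g := fun i hi =>
    ((Subgroup.mem_centralizer_iff.1 (Subgroup.mem_inf.1 hgH).2) _ ⟨i, hi, rfl⟩).symm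
  have hnZ : ∀ i ∈ I, g⁻¹ * glMap chevF4.Idx σ g * zz i c = zz i c * (g⁻¹ * glMap chevF4.Idx σ g) := by
    intro i hi
    have h1 : glMap chevF4.Idx σ g * zz i c ^ q = zz i c ^ q * glMap chevF4.Idx σ g := by
      rw [← glMap_frob hF4 hσ (zz_mem i c), ← map_mul, hgZ i hi, map_mul]
    have h2 : Commute (glMap chevF4.Idx σ g) (zz i c ^ q) := h1
    have h3 : (zz i c : GL chevF4.Idx K) = (zz i c ^ q) ^ (q ^ (N - 1)) := by
      rw [← pow_mul, ← pow_succ', Nat.sub_add_cancel hN, ← hK, hzQ]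
    have h4 : Commute (glMap chevF4.Idx σ g) (zz i c) := by
      rw [h3]; exact h2.pow_right _
    have h5 : Commute g (zz i c) := hgZ i hi
    exact (h5.inv_left.mul_left h4).eq
  obtain ⟨b, hb, m, hm, w, hw, hbmw, u, hu, hact, hf, hf2⟩ := frame E hF4 ι hσ hι hg
  obtain ⟨h3, h4, h5⟩ := hf y ht
  set t : GL chevF4.Idx K := g⁻¹ * glMap chevF4.Idx ι y * g with ht_def
  have hts : t ^ s = 1 := conj_pow_eq hyι
  have ht1 : t ≠ 1 := conj_ne_one (fun h => hy1 (glMap_injective ι (by rw [h, map_one])))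
  have hqinj : ∀ x y : K, x ^ q = y ^ q → x = y := by
    intro x y hxy
    rw [← hσ, ← hσ] at hxy
    exact σ.injective hxy
  have huI : ∀ i ∈ I, ∀ x : Fin chevF4.nroots, vec chevF4 (u x) i = vec chevF4 x i := by
    intro i hi x
    have h6 := (hf2 (zz i c) (zz_mem i c) (hnZ i hi)).1 x
    rw [ev_zz (hI i hi), ev_zz (hI i hi)] at h6
    have h7 := Units.ext h6
    have b1 := vec_bd' (u x).2 (hI i hi)
    have b2 := vec_bd' x.2 (hI i hi)
    exact zpow_inj hco hQ b1.1 b1.2 b2.1 b2.2 h7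
  obtain ⟨ζ, hζ, a, ha, ha0, haM⟩ := log_data E hF4 (r := s) hsK ht ht1 hts h3
  have heig := eig_of E haM
  have hreg' : ∀ x : Fin chevF4.nroots, (∀ i ∈ I, vec chevF4 x i = 0) → ev t x ≠ 1 := by
    intro x hx h6
    apply hreg u hu huI _ ha0 heig x hx
    rw [ev_log E hF4 ζ (hζ.ne_zero hs.out.ne_zero) ht ha] at h6
    have h7 : ζ ^ (a ⬝ᵥ rv chevF4 x) = ζ ^ (0 : ℤ) := by rw [h6, zpow_zero]
    rw [zpow_eq_iff hζ hs.out.ne_zero] at h7
    have h8 : (a ⬝ᵥ rv chevF4 x : ℤ) = ∑ i : Fin 4, a i * vec chevF4 x i := rfl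
    rw [h8, Fin.sum_univ_four] at h7
    push_cast at h7
    exact h7
  have hcomm : ∀ x : Fin chevF4.nroots, (∃ i ∈ I, ev (zz i c) x ≠ 1) ∨ ev t x ≠ 1 := by
    intro x
    by_cases h6 : ∀ i ∈ I, vec chevF4 x i = 0
    · exact Or.inr (hreg' x h6)
    · push Not at h6
      obtain ⟨i, hi, h7⟩ := h6
      left
      refine ⟨i, hi, ?_⟩
      rw [ev_zz (hI i hi)]
      intro h8
      apply h7
      have h9 : c ^ vec chevF4 x i = c ^ (0 : ℤ) := by
        rw [zpow_zero]; exact Units.ext h8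
      have b2 := vec_bd' x.2 (hI i hi)
      exact zpow_inj hco hQ b2.1 b2.2 (by norm_num) (by norm_num) h9
  have hb1 : b = 1 := by
    refine cent_U' hF4 hb fun x => ?_
    rcases hcomm x with ⟨i, hi, h6⟩ | h6
    · exact ⟨_, zz_mem i c, h6, (hf2 (zz i c) (zz_mem i c) (hnZ i hi)).2.2⟩
    · exact ⟨t, ht, h6, h5⟩
  have hw1 : w = 1 := by
    refine cent_U' hF4 hw fun x => ?_
    rcases hcomm x with ⟨i, hi, h6⟩ | h6
    · exact ⟨_, zz_mem i c, h6, (hf2 (zz i c) (zz_mem i c) (hnZ i hi)).2.1⟩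
    · refine ⟨t ^ q, pow_mem ht q, ?_, h4⟩
      rw [ev_pow hF4 ht]
      intro h0
      apply h6
      apply hqinj
      rw [h0, one_pow]
  have hgm : g⁻¹ * glMap chevF4.Idx σ g = m := by rw [hbmw, hb1, hw1, one_mul, mul_one]
  -- the second element
  have hMW := wm_pow_card E hF4 hu
  have hcyc := cyc_dvd_charpoly Nat.card_pos hMW hWs ha0 haM (by rw [hos]; exact hk0)
  rw [hos] at hcyc
  obtain ⟨β, hβ, hβM⟩ := exists_eig hor hrk hcyc
  obtain ⟨x, hx⟩ := exists_prime_orderOf_dvd_card' (G := Kˣ) r (by rw [Nat.card_units, Nat.card_eq_fintype_card]; exact hrK)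
  have hx2 : IsPrimitiveRoot (x : K) r := by
    rw [IsPrimitiveRoot.coe_units_iff, ← hx]; exact IsPrimitiveRoot.orderOf x
  obtain ⟨t₂, ht₂, ht21, ht2r, hev⟩ := exists_t2 E hF4 (torF4 K) hx2 hu hβ hβM
  have hm2 : m * t₂ ^ q * m⁻¹ = t₂ := by
    apply ev_ext E hF4 (RGrp.N_conj_H hm (pow_mem ht₂ q)) ht₂
    intro i
    have h6 := N_conj_ev E hF4 hm hact (pow_mem ht₂ q) (u⁻¹ (E.rp.wsys.p i))
    have e5 : u (u⁻¹ (E.rp.wsys.p i)) = E.rp.wsys.p i := u.apply_symm_apply _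
    rw [e5, ev_pow hF4 ht₂, ← hev, e5] at h6
    exact h6
  have hfix2 : glMap chevF4.Idx σ (g * t₂ * g⁻¹) = g * t₂ * g⁻¹ := by
    rw [map_mul, map_mul, map_inv, glMap_frob hF4 hσ ht₂]
    have h6 : glMap chevF4.Idx σ g = g * m := by rw [← hgm]; group
    rw [h6]
    calc g * m * t₂ ^ q * (g * m)⁻¹ = g * (m * t₂ ^ q * m⁻¹) * g⁻¹ := by group
      _ = _ := by rw [hm2]
  obtain ⟨y₂, hy₂, e₂⟩ := fixed_group hF4 E ι σ hfix (torF4 F)
    (mul_mem (mul_mem hg (diag_le_grp (K := K) E hF4 ht₂)) (inv_mem hg)) hfix2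
  refine ⟨y₂, hy₂, ?_, ?_, ?_⟩
  · intro h
    apply ht21
    rw [h, map_one] at e₂
    have : t₂ = g⁻¹ * (g * t₂ * g⁻¹) * g := by group
    rw [this, ← e₂]; group
  · apply glMap_injective ι
    rw [map_pow, e₂, map_one]
    have := conj_pow (i := r) (a := g) (b := t₂)
    rw [this, ht2r]; group
  · apply glMap_injective ι
    rw [map_mul, map_mul, e₂]
    have h6 : glMap chevF4.Idx ι y = g * t * g⁻¹ := by rw [ht_def]; group
    have h7 := diag_comm hF4 ht ht₂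
    rw [h6]
    calc g * t * g⁻¹ * (g * t₂ * g⁻¹) = g * (t * t₂) * g⁻¹ := by group
      _ = g * (t₂ * t) * g⁻¹ := by rw [h7]
      _ = _ := by group

end

end Cfsg.Agent.ChevPG
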